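import Cfsg.Agent.MaxSub.TensorPowSp.Even.Tens

/-!
From a non-scalar map of the tensor power, sums of conjugates under transvections of the factors
give a pure map with a pair map at some factors and the identity at the others.
-/

set_option autoImplicit false
set_option linter.unusedSectionVars false
set_option linter.unusedSimpArgs false
set_option linter.style.haveILetI false

namespace Cfsg.Agent.MaxSub.TensorPowSp.Even

open Module Matrix Cfsg.Agent.MaxSub.TensorPow Cfsg.Agent.GeoClasses
open Cfsg.Agent.MaxSub.ExtField (Mem inv_apply_self self_inv_apply)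

universe u w

variable {F : Type u} [Field F] {m : ℕ}

section Site

variable {W : Type w} [AddCommGroup W] [Module F W] (P : Forms F m W)

/-- The transvection of a vector of the first factor. -/
def tau (u : Fin m → F) : (Fin m → W) →ₗ[F] (Fin m → W) :=
  LinearMap.id + root u (eta P u) LinearMap.id

/-- The coefficient of a map at two vectors. -/
def coef (N : (Fin m → W) →ₗ[F] (Fin m → W)) (z w : Fin m → F) : W →ₗ[F] W :=
  evs P z ∘ₗ N ∘ₗ ins w

variable {P}

/-- A map not commuting with the transvections yields a pair. -/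
theorem site_lemma {Q : ((Fin m → W) →ₗ[F] (Fin m → W)) → Prop}
    (hadd : ∀ M N, Q M → Q N → Q (M + N))
    (hconj : ∀ u M, Q M → Q (tau P u ∘ₗ M ∘ₗ tau P u))
    {N : (Fin m → W) →ₗ[F] (Fin m → W)} (hN : Q N) :
    (∃ z w β, Orth P z w ∧ β ≠ 0 ∧ Q (dq P β β z w)) ∨
      ∃ N₀ : W →ₗ[F] W, ∀ (u : Fin m → F) (w : W), N (ins u w) = ins u (N₀ w) := by
  classical
  set b := coef P N with hb
  have hb' : ∀ z w p, evs P z (N (ins w p)) = b z w p := fun _ _ _ => rfl
  -- the symmetrised product
  have hZ : ∀ z w, P.g z w = 0 →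
      Q (root z (eta P w) (b z w) + root w (eta P z) (b w z)) := fun z w hzw => by
    have hwz : P.g w z = 0 := by rw [P.g_symm, hzw]
    have h := hadd _ _ (hadd _ _ (hadd _ _ hN (hconj z N hN)) (hconj w N hN))
      (hconj z _ (hconj w N hN))
    convert h using 1
    refine LinearMap.ext fun X => ?_
    have hb'' : ∀ z w p, ev (eta P z) (N (ins w p)) = b z w p := fun _ _ _ => rfl
    simp only [tau, LinearMap.add_apply, LinearMap.comp_apply, LinearMap.id_apply, root_apply,
      map_add, map_smul, P.ev_eta_ins, hzw, hwz, P.alt.alt, zero_smul, map_zero, add_zero, hb'']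
    have a1 := P.add_self (N X)
    have a2 := P.add_self (N (ins z (ev (eta P z) X)))
    have a3 := P.add_self (ins z (ev (eta P z) (N X)))
    have a4 := P.add_self (ins z (b z z (ev (eta P z) X)))
    have a5 := P.add_self (N (ins w (ev (eta P w) X)))
    have a6 := P.add_self (ins w (ev (eta P w) (N X)))
    have a7 := P.add_self (ins w (b w w (ev (eta P w) X)))
    linear_combination (norm := abel) -a1 - a1 - a2 - a3 - a4 - a5 - a6 - a7
  by_cases hA : ∃ z, b z z ≠ 0
  · -- the polarised pair, moved
    obtain ⟨z, hz⟩ := hA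
    have hz0 : z ≠ 0 := fun h0 => hz (LinearMap.ext fun p => by
      rw [← hb', h0, P.evs_zero]; rfl)
    obtain ⟨w, hw, hperp⟩ := P.exists_perp_avoid ![z] (F ∙ z)
      (by rw [finrank_span_singleton hz0]; have := P.dim; omega)
    have hwz : P.g w z = 0 := hperp 0
    have hzw : P.g z w = 0 := by rw [P.g_symm, hwz]
    obtain ⟨u, huw, huz⟩ := P.alt.exists_pair hw
    have hzu : P.g z u = 0 := by rw [P.g_symm, huz]
    have hwu : P.g w u = 1 := by rw [P.g_symm, huw]
    have hY := hadd _ _ (hZ z (z + w) (by rw [map_add, P.alt.alt, hzw, add_zero])) (hZ z w hzw)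
    refine Or.inl ⟨z, u, b z z, ⟨hz0, fun hm => ?_, hzu⟩, hz, ?_⟩
    · obtain ⟨c, rfl⟩ := Submodule.mem_span_singleton.1 hm
      rw [map_smul, LinearMap.smul_apply, hzw, smul_zero] at huw
      exact zero_ne_one huw
    · convert hadd _ _ hY (hconj u _ hY) using 1
      refine LinearMap.ext fun X => ?_
      have h1 : ∀ p, b z (z + w) p = b z z p + b z w p := fun p => by
        rw [← hb', ins_add, map_add, map_add, hb', hb']
      have h2 : ∀ p, b (z + w) z p = b z z p + b w z p := fun p => by
        rw [← hb', P.evs_add, hb', hb']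
      have h3 : ev (eta P (z + w)) X = ev (eta P z) X + ev (eta P w) X := P.evs_add z w X
      have h4 : ∀ Y, ev (eta P (z + w)) Y = ev (eta P z) Y + ev (eta P w) Y := fun Y =>
        P.evs_add z w Y
      simp only [dq, tau, LinearMap.add_apply, LinearMap.comp_apply, LinearMap.id_apply, root_apply,
        ins_add, map_add, map_smul, h1, h2, h4, P.ev_eta_ins, hzw, hwz, hzu, huz, hwu, huw,
        P.alt.alt, zero_smul, one_smul, map_zero, add_zero, zero_add]
      abel_nf
      have h4z : ∀ Y : Fin m → W, (4 : ℤ) • Y = 0 := fun Y => by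
        rw [show (4 : ℤ) = 2 * 2 from rfl, mul_smul, two_smul ℤ ((2 : ℤ) • Y), P.add_self]
      have h4n : ∀ Y : Fin m → W, (4 : ℕ) • Y = 0 := fun Y => by
        rw [show (4 : ℕ) = 2 * 2 from rfl, mul_smul, two_smul ℕ ((2 : ℕ) • Y), P.add_self]
      simp only [h4z, h4n, two_smul, P.add_self, add_zero, zero_add]
  push Not at hA
  have hsymm : ∀ z w, b z w = b w z := fun z w => by
    refine LinearMap.ext fun p => ?_
    have h := LinearMap.congr_fun (hA (z + w)) p
    rw [← hb', ins_add, map_add, map_add, P.evs_add, P.evs_add, hb', hb', hb', hb', hA z, hA w] at h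
    simp only [LinearMap.zero_apply, zero_add, add_zero] at h
    rw [← P.neg_eq (b z w p)]
    exact (eq_neg_of_add_eq_zero_left h).symm ▸ by simp [P.neg_eq]
  by_cases hB : ∃ z w, P.g z w = 0 ∧ b z w ≠ 0
  · obtain ⟨z, w, hzw, hne⟩ := hB
    refine Or.inl ⟨z, w, b z w, ⟨?_, ?_, hzw⟩, hne, ?_⟩
    · intro h0
      exact hne (LinearMap.ext fun p => by rw [← hb', h0, P.evs_zero]; rfl)
    · intro hm
      obtain ⟨c, rfl⟩ := Submodule.mem_span_singleton.1 hm
      exact hne (LinearMap.ext fun p => by rw [← hb', ins_smul, map_smul, map_smul, hb', hA z]; simp)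
    · convert hZ z w hzw using 2
      rw [hsymm z w]; rfl
  push Not at hB
  refine Or.inr ?_
  -- `b` is a multiple of the form
  have hlin : ∀ z w w', b z (w + w') = b z w + b z w' := fun z w w' => LinearMap.ext fun p => by
    rw [LinearMap.add_apply, ← hb', ins_add, map_add, map_add, hb', hb']
  have hsm : ∀ (c : F) z w, b z (c • w) = c • b z w := fun c z w => LinearMap.ext fun p => by
    rw [LinearMap.smul_apply, ← hb', ins_smul, map_smul, map_smul, hb']
  have hmul : ∀ z w w', P.g z w' = 1 → b z w = P.g z w • b z w' := fun z w w' h1 => by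
    have h2 := hB z (w + P.g z w • w') (by rw [map_add, map_smul, h1, smul_eq_mul, mul_one, P.add_self])
    rw [hlin, hsm, add_eq_zero_iff_eq_neg] at h2
    rw [h2]
    exact LinearMap.ext fun p => by simp [P.neg_eq]
  obtain ⟨z₀, hz₀⟩ : ∃ z : Fin m → F, z ≠ 0 :=
    ⟨Pi.single ⟨0, by have := P.dim; omega⟩ 1, by simp⟩
  obtain ⟨y₀, hy₀⟩ := P.exists_dual_vec hz₀
  set N₀ := b z₀ y₀ with hN₀
  have hy₀' : P.g z₀ y₀ = 1 := by rw [P.g_symm, hy₀]
  have hval : ∀ z w, b z w = P.g z w • N₀ := by
    intro z w
    rcases eq_or_ne z 0 with rfl | hz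
    · exact LinearMap.ext fun p => by simp [← hb', P.evs_zero, -ev_apply]
    obtain ⟨y, hy⟩ := P.exists_dual_vec hz
    have hy' : P.g z y = 1 := by rw [P.g_symm, hy]
    rw [hmul z w y hy']
    congr 1
    -- a vector meeting both
    obtain ⟨v, hv, hv₀⟩ : ∃ v, P.g z v ≠ 0 ∧ P.g z₀ v ≠ 0 := by
      by_cases h1 : P.g z₀ y ≠ 0
      · exact ⟨y, by rw [hy']; exact one_ne_zero, h1⟩
      by_cases h2 : P.g z y₀ ≠ 0
      · exact ⟨y₀, h2, by rw [hy₀']; exact one_ne_zero⟩
      push Not at h1 h2
      exact ⟨y + y₀, by rw [map_add, hy', h2, add_zero]; exact one_ne_zero,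
        by rw [map_add, hy₀', h1, zero_add]; exact one_ne_zero⟩
    obtain ⟨yv, hyv⟩ := P.exists_dual_vec (show v ≠ 0 from fun h0 => hv (by rw [h0, map_zero]))
    have hyv' : P.g v yv = 1 := by rw [P.g_symm, hyv]
    have e1 : b z y = b v yv := by
      have h3 := hmul z v y hy'
      rw [hsymm z v, hmul v z yv hyv', P.g_symm v z] at h3
      exact (smul_right_injective _ hv h3).symm
    have e2 : b z₀ y₀ = b v yv := by
      have h3 := hmul z₀ v y₀ hy₀'
      rw [hsymm z₀ v, hmul v z₀ yv hyv', P.g_symm v z₀] at h3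
      exact (smul_right_injective _ hv₀ h3).symm
    rw [hN₀, e1, e2]
  refine ⟨N₀, fun u p => sub_eq_zero.1 (P.eq_zero_of_evs _ fun z => ?_)⟩
  rw [map_sub, hb', P.evs_ins, hval, LinearMap.smul_apply, P.g_symm z u, sub_self]

end Site

variable [Finite F] {t : ℕ} (E : Env F m)

/-- The rank-one matrix of two vectors. -/
def rk (a b : Fin m → F) : Matrix (Fin m) (Fin m) F :=
  vecMulVec a (fun i => E.g (Pi.single i 1) b)

/-- The matrix of a pair. -/
def Sd (z w : Fin m → F) : Matrix (Fin m) (Fin m) F := rk E z w + rk E w z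

/-- Two independent orthogonal vectors. -/
def Env.Orth (x y : Fin m → F) : Prop := x ≠ 0 ∧ y ∉ F ∙ x ∧ E.g x y = 0

/-- A map of the slices as a map of the power. -/
def sl (D : (Fin m → Ten F m t) →ₗ[F] (Fin m → Ten F m t)) :
    Ten F m (t + 1) →ₗ[F] Ten F m (t + 1) :=
  (slice F m t).symm.toLinearMap ∘ₗ D ∘ₗ (slice F m t).toLinearMap

/-- A map of the last factors acting on every slice. -/
def dia (M : Ten F m t →ₗ[F] Ten F m t) : (Fin m → Ten F m t) →ₗ[F] (Fin m → Ten F m t) :=
  LinearMap.pi fun a => M ∘ₗ LinearMap.proj a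

/-- The transvection of a vector at one factor. -/
noncomputable abbrev tv (j : Fin t) (u : Fin m → F) : Ten F m t →ₗ[F] Ten F m t :=
  LinearMap.id + proj E j u

variable {E}

lemma dia_ins (M : Ten F m t →ₗ[F] Ten F m t) (u : Fin m → F) (p : Ten F m t) :
    dia M (ins u p) = ins u (M p) := by
  funext a; simp [dia]

lemma ev_dia (M : Ten F m t →ₗ[F] Ten F m t) (φ : Fin m → F) (Y : Fin m → Ten F m t) :
    ev φ (dia M Y) = M (ev φ Y) := by
  simp [dia]

lemma tv_succ (j : Fin t) (u : Fin m → F) : tv E j.succ u = sl (dia (tv E j u)) := by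
  refine LinearMap.ext fun X => (slice F m t).eq_symm_apply.2 ?_
  funext a
  simp [tv, dia, slice_pos_succ]

lemma tv_zero (u : Fin m → F) : tv E (0 : Fin (t + 1)) u = sl (tau (E.forms t) u) := by
  refine LinearMap.ext fun X => (slice F m t).eq_symm_apply.2 ?_
  simp only [tv, LinearMap.add_apply, LinearMap.id_apply, map_add, Matrix.toLin'_apply, root_slice]
  rfl

lemma sl_comp (D D' : (Fin m → Ten F m t) →ₗ[F] (Fin m → Ten F m t)) :
    sl D ∘ₗ sl D' = sl (D ∘ₗ D') := LinearMap.ext fun X => by simp [sl]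

lemma sl_add (D D' : (Fin m → Ten F m t) →ₗ[F] (Fin m → Ten F m t)) :
    sl (D + D') = sl D + sl D' := LinearMap.ext fun X => by simp [sl]

lemma sl_dia_one (c : F) (Xs : Fin t → Matrix (Fin m) (Fin m) F) :
    sl (dia (c • Matrix.toLin' (pureMat Xs))) =
      c • Matrix.toLin' (pureMat (Fin.cons (1 : Matrix (Fin m) (Fin m) F) Xs)) := by
  refine LinearMap.ext fun X => (slice F m t).symm_apply_eq.2 ?_
  funext a
  simp only [LinearMap.smul_apply, map_smul, Matrix.toLin'_apply, slice_pureMat, Fin.cons_zero,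
    Fin.cons_succ, Pi.smul_apply, dia, LinearMap.comp_apply, LinearMap.pi_apply, LinearMap.proj_apply,
    LinearEquiv.coe_coe]
  rw [Finset.sum_eq_single a (fun b _ hb => by simp [hb.symm]) (by simp)]
  simp

lemma sl_root (c : F) (u φ : Fin m → F) (Xs : Fin t → Matrix (Fin m) (Fin m) F) :
    sl (root u φ (c • Matrix.toLin' (pureMat Xs))) =
      c • Matrix.toLin' (pureMat (Fin.cons (vecMulVec u φ) Xs)) := by
  refine LinearMap.ext fun X => (slice F m t).symm_apply_eq.2 ?_
  funext a
  simp only [LinearMap.smul_apply, map_smul, Matrix.toLin'_apply, slice_pureMat, Fin.cons_zero,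
    Fin.cons_succ, Pi.smul_apply, LinearMap.comp_apply, LinearEquiv.coe_coe, ins_apply, ev_apply,
    Matrix.mulVec_sum, Matrix.mulVec_smul, vecMulVec_apply, Finset.smul_sum, smul_smul]
  refine Finset.sum_congr rfl fun i _ => ?_
  congr 1
  ring

lemma pureMat_cons_add (A B : Matrix (Fin m) (Fin m) F) (Xs : Fin t → Matrix (Fin m) (Fin m) F) :
    pureMat (Fin.cons (A + B) Xs) = pureMat (Fin.cons A Xs) + pureMat (Fin.cons B Xs) := by
  ext x y
  simp [pureMat, Fin.prod_univ_succ, add_mul]

lemma sl_dq (c : F) (z w : Fin m → F) (Xs : Fin t → Matrix (Fin m) (Fin m) F) :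
    sl (dq (E.forms t) (c • Matrix.toLin' (pureMat Xs)) (c • Matrix.toLin' (pureMat Xs)) z w) =
      c • Matrix.toLin' (pureMat (Fin.cons (Sd E z w) Xs)) := by
  rw [dq, sl_add, sl_root, sl_root, Sd, pureMat_cons_add, map_add, smul_add]
  rfl

/-- Sums of conjugates of a non-scalar map give a pure map of pairs. -/
theorem exists_pure_pairs : ∀ (t : ℕ) {P : (Ten F m t →ₗ[F] Ten F m t) → Prop},
    (∀ M N, P M → P N → P (M + N)) → (∀ j u M, P M → P (tv E j u ∘ₗ M ∘ₗ tv E j u)) →
    ∀ {N}, P N → (∀ c : F, N ≠ c • LinearMap.id) →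
    ∃ (c : F) (Xs : Fin t → Matrix (Fin m) (Fin m) F), c ≠ 0 ∧
      (∀ i, Xs i = 1 ∨ ∃ z w, E.Orth z w ∧ Xs i = Sd E z w) ∧
      (∃ i z w, E.Orth z w ∧ Xs i = Sd E z w) ∧ P (c • Matrix.toLin' (pureMat Xs)) := by
  classical
  intro t
  induction t with
  | zero =>
    intro P _ _ N _ hN
    refine absurd ?_ (hN (N (fun _ => 1) default))
    refine LinearMap.ext fun X => ?_
    have e : X = X default • (fun _ => 1 : Ten F m 0) := by
      funext z; simp [Subsingleton.elim z default]
    funext z
    rw [Subsingleton.elim z default]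
    conv_lhs => rw [e, map_smul]
    simp [mul_comm]
  | succ t ih =>
    intro P hadd hconj N hN hne
    have hone : ∀ c : F, sl (t := t) (dia (c • LinearMap.id)) = c • LinearMap.id := fun c => by
      refine LinearMap.ext fun X => (slice F m t).symm_apply_eq.2 ?_
      funext a
      simp only [LinearMap.comp_apply, LinearEquiv.coe_coe, dia, LinearMap.pi_apply,
        LinearMap.proj_apply]
      rw [LinearMap.smul_apply, LinearMap.smul_apply, LinearMap.id_apply, LinearMap.id_apply,
        map_smul]
      rfl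
    have hQ := site_lemma (P := E.forms t) (Q := fun M => P (sl M))
      (fun M M' h h' => by rw [sl_add]; exact hadd _ _ h h')
      (fun u M h => by
        have := hconj 0 u _ h
        rwa [tv_zero, sl_comp, sl_comp] at this)
      (N := (slice F m t).toLinearMap ∘ₗ N ∘ₗ (slice F m t).symm.toLinearMap)
      (by convert hN using 1; exact LinearMap.ext fun X => by simp [sl])
    rcases hQ with ⟨z, w, β, hzw, hβ, hP⟩ | ⟨N₀, hN₀⟩
    · -- a pair at the first factor
      by_cases hsc : ∃ c : F, β = c • LinearMap.id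
      · obtain ⟨c, rfl⟩ := hsc
        refine ⟨c, Fin.cons (Sd E z w) fun _ => 1, fun h0 => hβ (by rw [h0, zero_smul]),
          Fin.cases (Or.inr ⟨z, w, hzw, Fin.cons_zero ..⟩) (fun i => Or.inl (Fin.cons_succ ..)),
          ⟨0, z, w, hzw, Fin.cons_zero ..⟩, ?_⟩
        rw [← sl_dq, pureMat_one, Matrix.toLin'_one]
        exact hP
      push Not at hsc
      obtain ⟨c, Xs, hc, hXs, -, hPX⟩ := ih
        (P := fun M => P (sl (dq (E.forms t) M M z w)))
        (fun M M' h h' => by
          convert hadd _ _ h h' using 1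
          rw [← sl_add]
          congr 1
          refine LinearMap.ext fun X => ?_
          simp only [dq, LinearMap.add_apply, root_apply, map_add]
          abel)
        (fun j u M h => by
          convert hconj j.succ u _ h using 1
          rw [tv_succ, sl_comp, sl_comp]
          congr 1
          refine LinearMap.ext fun X => ?_
          simp only [dq, LinearMap.add_apply, LinearMap.comp_apply, root_apply, map_add, dia_ins,
            ev_dia])
        hP hsc
      refine ⟨c, Fin.cons (Sd E z w) Xs, hc,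
        Fin.cases (Or.inr ⟨z, w, hzw, Fin.cons_zero ..⟩) (fun i => by simpa using hXs i),
        ⟨0, z, w, hzw, Fin.cons_zero ..⟩, ?_⟩
      rwa [← sl_dq]
    · -- the first factor untouched
      have hN' : N = sl (dia N₀) := by
        refine LinearMap.ext fun X => ?_
        obtain ⟨Y, rfl⟩ := (slice F m t).symm.surjective X
        refine LinearMap.congr_fun (show N ∘ₗ (slice F m t).symm.toLinearMap =
          sl (dia N₀) ∘ₗ (slice F m t).symm.toLinearMap from
            LinearMap.ext (Forms.ext_ins (F := F) fun u p => ?_)) Y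
        have := hN₀ u p
        simp only [LinearMap.comp_apply, LinearEquiv.coe_coe] at this
        simp [sl, dia_ins, ← this]
      obtain ⟨c, Xs, hc, hXs, ⟨i, z, w, hzw, hi⟩, hPX⟩ := ih
        (P := fun M => P (sl (dia M)))
        (fun M M' h h' => by
          convert hadd _ _ h h' using 1
          rw [← sl_add]
          congr 1)
        (fun j u M h => by
          convert hconj j.succ u _ h using 1
          rw [tv_succ, sl_comp, sl_comp]
          congr 1)
        (N := N₀) (by show P _; rwa [← hN'])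
        (fun c h => hne c (by rw [hN', h, hone]))
      refine ⟨c, Fin.cons 1 Xs, hc, Fin.cases (Or.inl (Fin.cons_zero ..)) (fun i => by simpa using hXs i),
        ⟨i.succ, z, w, hzw, by simpa using hi⟩, ?_⟩
      rwa [← sl_dia_one]

end Cfsg.Agent.MaxSub.TensorPowSp.Even
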