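import Cfsg.Agent.MaxSub.TensorPowSp.Even.Fix
import Cfsg.Agent.MaxSub.TensorPow.Main

/-!
Tensor powers of a symplectic space in characteristic two.
-/

set_option autoImplicit false
set_option linter.unusedSectionVars false
set_option linter.unusedSimpArgs false
set_option linter.style.haveILetI false
set_option maxHeartbeats 1000000

namespace Cfsg.Agent.MaxSub.TensorPowSp.Even

open Module Matrix Cfsg.Agent.MaxSub.TensorPow Cfsg.Agent.GeoClasses
open Cfsg.Agent.MaxSub.TensorMax (Alt)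
open Cfsg.Agent.MaxSub.ExtField (Mem inv_apply_self self_inv_apply)

universe u

variable {F : Type u} [Field F] [Finite F] {m t : ℕ}

/-- A symplectic space of dimension at least six in characteristic two. -/
structure Env (F : Type u) [Field F] (m : ℕ) where
  /-- the form -/
  g : (Fin m → F) →ₗ[F] (Fin m → F) →ₗ[F] F
  h2 : (2 : F) = 0
  alt : Alt g
  dim : 6 ≤ m

variable (E : Env F m)

/-- The Gram matrix. -/
def Env.gram : Matrix (Fin m) (Fin m) F := Matrix.of fun i j => E.g (Pi.single i 1) (Pi.single j 1)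

/-- The form on the tensor power. -/
noncomputable def Env.bT (t : ℕ) : Ten F m t →ₗ[F] Ten F m t →ₗ[F] F :=
  Matrix.toLinearMap₂' F (pureMat fun _ : Fin t => E.gram)

lemma Env.dot_gram (u v : Fin m → F) : u ⬝ᵥ (E.gram *ᵥ v) = E.g u v := by
  classical
  conv_rhs => rw [pi_eq_sum_univ' u]
  simp only [map_sum, map_smul, LinearMap.sum_apply, LinearMap.smul_apply, smul_eq_mul, dotProduct]
  refine Finset.sum_congr rfl fun i _ => ?_
  congr 1
  conv_rhs => rw [pi_eq_sum_univ' v]
  simp only [map_sum, map_smul, smul_eq_mul, Matrix.mulVec, dotProduct, Env.gram, Matrix.of_apply]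
  exact Finset.sum_congr rfl fun j _ => mul_comm _ _

lemma Env.bT_pvec (us vs : Fin t → Fin m → F) :
    E.bT t (pvec us) (pvec vs) = ∏ i, E.g (us i) (vs i) := by
  rw [Env.bT, Matrix.toLinearMap₂'_apply', pureMat_pvec]
  exact (fprod_pvec us _).trans (Finset.prod_congr rfl fun i _ => E.dot_gram _ _)

lemma ext_pvec₂ {f f' : Ten F m t →ₗ[F] Ten F m t →ₗ[F] F}
    (h : ∀ us vs, f (pvec us) (pvec vs) = f' (pvec us) (pvec vs)) : f = f' :=
  ext_pvec fun us => ext_pvec fun vs => h us vs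

lemma Env.gram_single (a : Fin m) : ∃ c, E.gram *ᵥ c = Pi.single a 1 := by
  obtain ⟨c, hc⟩ := E.alt.exists_dual (dotProductBilin F F (Pi.single a (1 : F)))
  refine ⟨c, funext fun i => ?_⟩
  have h1 := E.dot_gram (Pi.single i 1) c
  rw [single_one_dotProduct] at h1
  have hneg : ∀ x : F, -x = x := fun x => by linear_combination (-x) * E.h2
  rw [h1, E.alt.skew, hneg, hc]
  simp [Pi.single_apply, eq_comm]

/-- The forms of the slices. -/
noncomputable def Env.forms (t : ℕ) : Forms F m (Ten F m t) where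
  g := E.g
  b := E.bT t
  h2 := E.h2
  alt := E.alt
  b_nd w hw := by
    classical
    funext z
    choose c hc using fun i => E.gram_single (z i)
    have h1 := hw (pvec c)
    rw [Env.bT, Matrix.toLinearMap₂'_apply', pureMat_pvec] at h1
    simp only [hc, pvec_single] at h1
    simpa using h1
  b_symm w w' := by
    refine LinearMap.congr_fun₂ (ext_pvec₂ (f := E.bT t) (f' := (E.bT t).flip) fun us vs => ?_) w w'
    rw [LinearMap.flip_apply, E.bT_pvec, E.bT_pvec]
    exact Finset.prod_congr rfl fun i _ => by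
      rw [E.alt.skew]; linear_combination (-E.g (vs i) (us i)) * E.h2
  dim := E.dim

lemma Env.bT_perm (σ : Equiv.Perm (Fin t)) (X Y : Ten F m t) :
    E.bT t (perm F m σ X) (perm F m σ Y) = E.bT t X Y := by
  refine LinearMap.congr_fun₂ (ext_pvec₂
    (f := (E.bT t).compl₁₂ (perm F m σ).toLinearMap (perm F m σ).toLinearMap) (f' := E.bT t)
    fun us vs => ?_) X Y
  simp only [LinearMap.compl₁₂_apply, LinearEquiv.coe_coe, perm_pvec, E.bT_pvec]
  exact Equiv.prod_comp σ.symm (fun i => E.g (us i) (vs i))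

lemma Env.bV_slice (X Y : Ten F m (t + 1)) :
    bV (E.forms t) (slice F m t X) (slice F m t Y) = E.bT (t + 1) X Y := by
  let sl : Ten F m (t + 1) →ₗ[F] (Fin m → Ten F m t) := (slice F m t).toLinearMap
  let Bl : Ten F m (t + 1) →ₗ[F] Ten F m (t + 1) →ₗ[F] F :=
    ∑ i, ∑ j, E.g (Pi.single i 1) (Pi.single j 1) •
      (E.bT t).compl₁₂ ((LinearMap.proj i).comp sl) ((LinearMap.proj j).comp sl)
  have hBl : ∀ X Y, Bl X Y = bV (E.forms t) (slice F m t X) (slice F m t Y) := fun X Y => by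
    simp [Bl, bV, Env.forms, sl, LinearMap.sum_apply]
  rw [← hBl]
  refine LinearMap.congr_fun₂ (ext_pvec₂ (f := Bl) (f' := E.bT (t + 1)) fun us vs => ?_) X Y
  rw [hBl, slice_pvec, slice_pvec, Forms.bV_ins_ins, E.bT_pvec, Fin.prod_univ_succ]
  congr 1
  exact E.bT_pvec _ _

/-- The projection to a vector at one factor. -/
noncomputable abbrev proj (j : Fin t) (u : Fin m → F) : Ten F m t →ₗ[F] Ten F m t :=
  Matrix.toLin' (pos j (vecMulVec u (fun i => E.g (Pi.single i 1) u)))

lemma proj_pvec (j : Fin t) (u : Fin m → F) (us : Fin t → Fin m → F) :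
    proj E j u (pvec us) = E.g (us j) u • pvec (Function.update us j u) := by
  rw [Matrix.toLin'_apply, pos_pvec, Matrix.vecMulVec_mulVec, op_smul_eq_smul, pvec_update_smul]
  congr 1
  conv_rhs => rw [pi_eq_sum_univ' (us j)]
  simp only [map_sum, map_smul, LinearMap.sum_apply, LinearMap.smul_apply, smul_eq_mul, dotProduct]
  exact Finset.sum_congr rfl fun i _ => mul_comm _ _

/-- The transvections of each factor lie in `G`. -/
def BaseS (G : Subgroup (Ten F m t ≃ₗ[F] Ten F m t)) : Prop :=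
  ∀ (j : Fin t) (u : Fin m → F) (c : F), Mem G (c • proj E j u)

/-- `G` preserves the form. -/
def IsoS (G : Subgroup (Ten F m t ≃ₗ[F] Ten F m t)) : Prop :=
  ∀ g ∈ G, ∀ X Y, E.bT t (g X) (g Y) = E.bT t X Y

/-- The even permutations of the factors occur up to maps of the factors. -/
def AltP (G : Subgroup (Ten F m t ≃ₗ[F] Ten F m t)) : Prop :=
  ∀ σ : Equiv.Perm (Fin t), Equiv.Perm.sign σ = 1 → ∃ g ∈ G, ∃ A, Wit σ A g

variable {E}

lemma isoS_conj {G : Subgroup (Ten F m t ≃ₗ[F] Ten F m t)} (hI : IsoS E G)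
    (σ : Equiv.Perm (Fin t)) : IsoS E (conjG σ G) := by
  rintro _ ⟨g, hg, rfl⟩ X Y
  simp only [MulEquiv.coe_toMonoidHom, MulAut.conj_apply, LinearEquiv.mul_apply]
  rw [E.bT_perm, hI g hg, ← E.bT_perm σ ((perm F m σ)⁻¹ X), self_inv_apply, self_inv_apply]

lemma baseS_conj {G : Subgroup (Ten F m t ≃ₗ[F] Ten F m t)} (hB : BaseS E G)
    (σ : Equiv.Perm (Fin t)) : BaseS E (conjG σ G) := fun j u c => by
  classical
  obtain ⟨f, hf, hfx⟩ := hB (σ.symm j) u c
  refine ⟨_, mem_conjG hf, fun X => ?_⟩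
  simp only [LinearEquiv.mul_apply, hfx, map_add, self_inv_apply, LinearMap.smul_apply, map_smul,
    Matrix.toLin'_apply]
  rw [pos, perm_pureMat, self_inv_apply, pos]
  congr 3
  refine congrArg pureMat (funext fun i => ?_)
  rcases eq_or_ne i j with rfl | hi
  · simp
  · simp [Function.update_of_ne hi, Function.update_of_ne (σ.symm.injective.ne hi)]

lemma altP_conj {G : Subgroup (Ten F m t ≃ₗ[F] Ten F m t)} (hP : AltP G) (σ : Equiv.Perm (Fin t)) :
    AltP (conjG σ G) := fun ρ hρ => by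
  obtain ⟨g, hg, A, hA⟩ := hP (σ⁻¹ * ρ * σ) (by simp [hρ])
  refine ⟨_, mem_conjG hg, ?_⟩
  have h := ((wit_perm (F := F) (m := m) σ).mul hA).mul (wit_perm σ.symm)
  rw [← perm_inv] at h
  rw [show σ.symm.symm * (σ⁻¹ * ρ * σ * σ.symm) = ρ by
    rw [Equiv.symm_symm, show σ.symm = σ⁻¹ from rfl]; group] at h
  exact ⟨_, h⟩

lemma grp_toS {G : Subgroup (Ten F m (t + 1) ≃ₗ[F] Ten F m (t + 1))} (hB : BaseS E G)
    (hI : IsoS E G) : Grp (E.forms t) (G.map (toS F m t).toMonoidHom) where
  iso := by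
    rintro _ ⟨g, hg, rfl⟩ X Y
    rw [MulEquiv.coe_toMonoidHom, toS_apply, toS_apply, E.bV_slice, hI g hg]
    rw [← E.bV_slice, LinearEquiv.apply_symm_apply, LinearEquiv.apply_symm_apply]
  trv u c := by
    obtain ⟨f, hf, hfx⟩ := hB 0 u c
    refine ⟨_, Subgroup.mem_map_of_mem _ hf, fun X => ?_⟩
    rw [MulEquiv.coe_toMonoidHom, toS_apply, hfx, map_add, LinearEquiv.apply_symm_apply,
      LinearMap.smul_apply, map_smul, Matrix.toLin'_apply, root_slice, LinearEquiv.apply_symm_apply]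
    rfl

end Cfsg.Agent.MaxSub.TensorPowSp.Even
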