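import Cfsg.Agent.MaxSub.TensorPowSp.Even.Sel
import Cfsg.Agent.MaxSub.TensorPowSp.Even.Tens
import Cfsg.Agent.MaxSub.TensorPowU.Swap

/-!
Induction on the number of factors: a group of isometries containing the transvections of every
factor and the even permutations is monomial, or one of its conjugates by a permutation has a
non-scalar parameter.
-/

set_option autoImplicit false
set_option linter.unusedSectionVars false
set_option linter.unusedSimpArgs false
set_option linter.style.haveILetI false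
set_option maxHeartbeats 1000000

namespace Cfsg.Agent.MaxSub.TensorPowSp.Even

open Module Matrix Cfsg.Agent.MaxSub.TensorPow Cfsg.Agent.GeoClasses
open Cfsg.Agent.MaxSub.TensorPowU (false_of_ne_one)
open Cfsg.Agent.MaxSub.ExtField (Mem inv_apply_self self_inv_apply)

universe u

variable {F : Type u} [Field F] [Finite F] {m t : ℕ} {E : Env F m}

/-- The displacement of a commutator. -/
lemma comm_apply {V : Type u} [AddCommGroup V] [Module F V] {a b : V ≃ₗ[F] V} {f g : V →ₗ[F] V}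
    (hax : ∀ x, a x = x + f x) (hbx : ∀ x, b x = x + g x) (hff : ∀ x, f (f x) = 0)
    (hgg : ∀ x, g (g x) = 0) (hgfg : ∀ x, g (f (g x)) = 0) (hfgf : ∀ x, f (g (f x)) = 0) (x : V) :
    (b * a * b⁻¹ * a⁻¹) x = x + (g (f x) - f (g x)) := by
  have hai : ∀ x, a⁻¹ x = x - f x := fun x => a.injective (by
    rw [self_inv_apply, hax, map_sub, hff]; abel)
  have hbi : ∀ x, b⁻¹ x = x - g x := fun x => b.injective (by
    rw [self_inv_apply, hbx, map_sub, hgg]; abel)
  simp only [LinearEquiv.mul_apply, hai, hbi, hax, hbx, map_sub, map_add, hff, hgg, hgfg, hfgf,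
    map_zero]
  abel

/-- The isometries. -/
def isoSub (E : Env F m) (t : ℕ) : Subgroup (Ten F m t ≃ₗ[F] Ten F m t) where
  carrier := {g | ∀ X Y, E.bT t (g X) (g Y) = E.bT t X Y}
  one_mem' := fun _ _ => rfl
  mul_mem' {a b} ha hb := fun X Y => (ha (b X) (b Y)).trans (hb X Y)
  inv_mem' {a} ha := fun X Y => by rw [← ha, self_inv_apply, self_inv_apply]

/-- The isometries of the last factors occurring in `G`. -/
noncomputable def tailS (E : Env F m) (G : Subgroup (Ten F m (t + 1) ≃ₗ[F] Ten F m (t + 1))) :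
    Subgroup (Ten F m t ≃ₗ[F] Ten F m t) :=
  tailGroup G ⊓ isoSub E t

/-- The maps of the last factors occurring with the identity on the first one. -/
def innerGroup (G : Subgroup (Ten F m (t + 1) ≃ₗ[F] Ten F m (t + 1))) :
    Subgroup (Ten F m t ≃ₗ[F] Ten F m t) where
  carrier := {κ | ∃ g ∈ G, ∀ (u : Fin m → F) (w : Ten F m t), toS F m t g (ins u w) = ins u (κ w)}
  one_mem' := ⟨1, G.one_mem, fun u w => by rw [map_one]; rfl⟩
  mul_mem' := by
    rintro κ κ' ⟨g, hg, h⟩ ⟨g', hg', h'⟩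
    exact ⟨g * g', G.mul_mem hg hg', fun u w => by
      rw [map_mul, LinearEquiv.mul_apply, h', h, LinearEquiv.mul_apply]⟩
  inv_mem' := by
    rintro κ ⟨g, hg, h⟩
    exact ⟨g⁻¹, G.inv_mem hg, fun u w => (toS F m t g).injective (by
      rw [map_inv, self_inv_apply, h, self_inv_apply])⟩

/-- A scalar map. -/
noncomputable def scal {c : F} (hc : c ≠ 0) : Ten F m t ≃ₗ[F] Ten F m t :=
  LinearEquiv.smulOfUnit (R := F) (M := Ten F m t) (Units.mk0 c hc)

lemma scal_apply {c : F} (hc : c ≠ 0) (X : Ten F m t) : scal hc X = c • X := rfl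

lemma scal_mem {c : F} (hc : c ≠ 0) (ht : 1 ≤ t) :
    scal (m := m) (t := t) hc ∈ monomial F m t := by
  refine ⟨1, Function.update (fun _ => 1) ⟨0, ht⟩ (c • 1), fun us => ?_⟩
  have e : (fun i => Function.update (fun _ => (1 : Matrix (Fin m) (Fin m) F)) ⟨0, ht⟩ (c • 1) i *ᵥ
      us ((1 : Equiv.Perm (Fin t)) i)) = Function.update us ⟨0, ht⟩ (c • us ⟨0, ht⟩) := by
    funext i
    rcases eq_or_ne i ⟨0, ht⟩ with rfl | hi
    · simp [Matrix.smul_mulVec]
    · simp [Function.update_of_ne hi]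
  rw [scal_apply, e, pvec_update_smul, Function.update_eq_self]

lemma innerGroup_iso {G : Subgroup (Ten F m (t + 1) ≃ₗ[F] Ten F m (t + 1))} (hB : BaseS E G)
    (hI : IsoS E G) : IsoS E (innerGroup G) := by
  rintro κ ⟨g, hg, h⟩ w w'
  obtain ⟨u, hu⟩ : ∃ u : Fin m → F, u ≠ 0 := by
    haveI : NeZero m := ⟨by have := E.dim; omega⟩
    exact ⟨Pi.single 0 1, by simp⟩
  obtain ⟨y, hy⟩ := (E.forms t).exists_dual_vec hu
  have h1 := (grp_toS hB hI).iso _ (Subgroup.mem_map_of_mem _ hg) (ins y w) (ins u w')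
  rw [MulEquiv.coe_toMonoidHom, h, h, Forms.bV_ins_ins, Forms.bV_ins_ins, hy, one_mul, one_mul] at h1
  exact h1

lemma innerGroup_base {G : Subgroup (Ten F m (t + 1) ≃ₗ[F] Ten F m (t + 1))} (hB : BaseS E G) :
    BaseS E (innerGroup G) := fun j u c => by
  obtain ⟨f, hf, hfx⟩ := hB j.succ u c
  have hkey : ∀ Y : Fin m → Ten F m t,
      toS F m t f Y = fun a => Y a + (c • proj E j u) (Y a) := fun Y => by
    rw [toS_apply, hfx, map_add, LinearEquiv.apply_symm_apply, LinearMap.smul_apply, map_smul,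
      Matrix.toLin'_apply, slice_pos_succ, LinearEquiv.apply_symm_apply]
    rfl
  have hinv : Function.Injective (LinearMap.id + c • proj E j u : Ten F m t →ₗ[F] Ten F m t) := by
    intro p p' h
    have hm : 0 < m := by have := E.dim; omega
    set v : Fin m → F := Pi.single ⟨0, hm⟩ 1
    have e : ∀ q, toS F m t f (ins v q) =
        ins v ((LinearMap.id + c • proj E j u : Ten F m t →ₗ[F] Ten F m t) q) := fun q => by
      rw [hkey]; funext a; simp [smul_comm (v a) c]
    exact ins_injective (show v ≠ 0 by simp [v]) ((toS F m t f).injective (by rw [e, e, h]))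
  refine ⟨LinearEquiv.ofInjectiveEndo _ hinv, ⟨f, hf, fun v q => ?_⟩, fun p => ?_⟩
  · rw [hkey]
    funext a
    simp [smul_comm (v a) c]
  · simp

lemma normalise {G : Subgroup (Ten F m (t + 1) ≃ₗ[F] Ten F m (t + 1))} (hB : BaseS E G)
    (hI : IsoS E G) {g : Ten F m (t + 1) ≃ₗ[F] Ten F m (t + 1)} (hg : g ∈ G)
    {B : Matrix (Fin m) (Fin m) F} {k : Ten F m t ≃ₗ[F] Ten F m t}
    (hBk : ∀ u w, toS F m t g (ins u w) = ins (B *ᵥ u) (k w)) :
    ∃ (c : F) (hc : c ≠ 0), (scal hc : Ten F m t ≃ₗ[F] Ten F m t) * k ∈ tailS E G := by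
  classical
  have hm : 0 < m := by have := E.dim; omega
  set u : Fin m → F := Pi.single ⟨0, hm⟩ 1
  obtain ⟨y, hy⟩ := (E.forms t).exists_dual_vec (show u ≠ 0 by simp [u])
  set μ := E.g (B *ᵥ y) (B *ᵥ u) with hμ
  have h1 : ∀ w w', μ * E.bT t (k w) (k w') = E.bT t w w' := fun w w' => by
    have h := (grp_toS hB hI).iso _ (Subgroup.mem_map_of_mem _ hg) (ins y w) (ins u w')
    rw [MulEquiv.coe_toMonoidHom, hBk, hBk, Forms.bV_ins_ins, Forms.bV_ins_ins, hy, one_mul] at h
    exact h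
  have hμ0 : μ ≠ 0 := fun h0 => by
    obtain ⟨e, he⟩ : ∃ e : Ten F m t, e ≠ 0 := ⟨Pi.single (fun _ => ⟨0, hm⟩) 1, by simp⟩
    exact he ((E.forms t).b_nd e fun w' => by
      show E.bT t e w' = 0
      rw [← h1, h0, zero_mul])
  haveI : CharP F 2 := (CharP.charP_iff_prime_eq_zero Nat.prime_two).2 E.h2
  haveI : ExpChar F 2 := ExpChar.prime Nat.prime_two
  obtain ⟨x, hx⟩ := (bijective_frobenius F 2).2 μ
  rw [frobenius_def] at hx
  have hx0 : x ≠ 0 := fun h0 => hμ0 (by rw [← hx, h0, zero_pow two_ne_zero])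
  refine ⟨x, hx0, Subgroup.mem_inf.2 ⟨⟨g, hg, x⁻¹ • B, fun u w => ?_⟩, fun w w' => ?_⟩⟩
  · rw [hBk, LinearEquiv.mul_apply, scal_apply, Matrix.smul_mulVec, map_smul, ins_smul, smul_smul,
      mul_inv_cancel₀ hx0, one_smul]
  · show E.bT t (((scal hx0 : Ten F m t ≃ₗ[F] Ten F m t) * k) w)
      (((scal hx0 : Ten F m t ≃ₗ[F] Ten F m t) * k) w') = E.bT t w w'
    rw [LinearEquiv.mul_apply, LinearEquiv.mul_apply, scal_apply, scal_apply, map_smul, map_smul,
      LinearMap.smul_apply, smul_eq_mul, smul_eq_mul, ← mul_assoc, ← pow_two, hx, h1]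

lemma baseS_tail {G : Subgroup (Ten F m (t + 1) ≃ₗ[F] Ten F m (t + 1))} (hB : BaseS E G)
    (hI : IsoS E G) : BaseS E (tailS E G) := fun j u c => by
  obtain ⟨k, hk, hkx⟩ := innerGroup_base hB j u c
  obtain ⟨g, hg, hgk⟩ := id hk
  exact ⟨k, Subgroup.mem_inf.2 ⟨⟨g, hg, 1, fun v w => by rw [hgk, Matrix.one_mulVec]⟩,
    innerGroup_iso hB hI k hk⟩, hkx⟩

lemma altP_tail {G : Subgroup (Ten F m (t + 1) ≃ₗ[F] Ten F m (t + 1))} (ht : 1 ≤ t)
    (hB : BaseS E G) (hI : IsoS E G) (hP : AltP G) : AltP (tailS E G) := fun σ hσ => by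
  classical
  obtain ⟨g, hg, A, hA⟩ := hP (Equiv.Perm.decomposeFin.symm (0, σ)) (by
    rw [Equiv.Perm.decomposeFin.symm_sign, if_pos rfl, one_mul, hσ])
  obtain ⟨k, hk, hform⟩ := isT_of_wit (by have := E.dim; omega) hA (by simp)
  obtain ⟨c, hc, hmem⟩ := normalise hB hI hg hform
  refine ⟨_, hmem, Function.update (fun i => A i.succ) ⟨0, ht⟩ (c • A (Fin.succ ⟨0, ht⟩)),
    fun us => ?_⟩
  have e : (fun i => Function.update (fun i => A (Fin.succ i)) ⟨0, ht⟩
      (c • A (Fin.succ ⟨0, ht⟩)) i *ᵥ us (σ i)) =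
      Function.update (fun i => A (Fin.succ i) *ᵥ us (σ i)) ⟨0, ht⟩
        (c • (A (Fin.succ ⟨0, ht⟩) *ᵥ us (σ ⟨0, ht⟩))) := by
    funext i
    rcases eq_or_ne i ⟨0, ht⟩ with rfl | hi
    · simp [Matrix.smul_mulVec]
    · simp [Function.update_of_ne hi]
  rw [LinearEquiv.mul_apply, scal_apply, hk, e, pvec_update_smul, Function.update_eq_self]
  simp

/-- The extension of a map of the last factors by the identity of a new factor. -/
noncomputable def lift₁ (N : Ten F m t →ₗ[F] Ten F m t) : Ten F m (t + 1) →ₗ[F] Ten F m (t + 1) :=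
  (slice F m t).symm.toLinearMap ∘ₗ (LinearMap.pi fun a => N ∘ₗ LinearMap.proj a) ∘ₗ
    (slice F m t).toLinearMap

lemma lift₁_ins (N : Ten F m t →ₗ[F] Ten F m t) (a : Fin m → F) (p : Ten F m t) :
    lift₁ N ((slice F m t).symm (ins a p)) = (slice F m t).symm (ins a (N p)) := by
  simp only [lift₁, LinearMap.comp_apply, LinearEquiv.coe_coe, LinearEquiv.apply_symm_apply]
  congr 1
  funext i
  simp

lemma toS_swap (a b : Fin m → F) (p : Ten F m t) :
    toS F m (t + 1) (perm F m (Equiv.swap 0 1)) (ins b ((slice F m t).symm (ins a p))) =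
      ins a ((slice F m t).symm (ins b p)) := by
  refine LinearMap.congr_fun (ext_pvec
    (f := (toS F m (t + 1) (perm F m (Equiv.swap 0 1))).toLinearMap ∘ₗ ins b ∘ₗ
      (slice F m t).symm.toLinearMap ∘ₗ ins a)
    (g := ins a ∘ₗ (slice F m t).symm.toLinearMap ∘ₗ ins b) fun us => ?_) p
  simp only [LinearMap.comp_apply, LinearEquiv.coe_coe, slice_symm_ins_pvec, toS_apply, perm_pvec]
  refine (slice F m (t + 1)).eq_symm_apply.1 ?_
  rw [slice_symm_ins_pvec, Equiv.symm_swap]
  congr 1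
  funext i
  refine Fin.cases ?_ (fun i => ?_) i
  · simp
  · refine Fin.cases ?_ (fun i => ?_) i
    · simp
    · rw [Equiv.swap_apply_of_ne_of_ne (Fin.succ_ne_zero _) (fun h => Fin.succ_ne_zero i
        (Fin.succ_injective _ (by simpa using h)))]
      simp

/-- A parameter of the last factors gives a parameter of the product. -/
theorem exists_param_of_tail {G : Subgroup (Ten F m (t + 1 + 1) ≃ₗ[F] Ten F m (t + 1 + 1))}
    (hB : BaseS E G) (hI : IsoS E G)
    {g : Ten F m (t + 1 + 1) ≃ₗ[F] Ten F m (t + 1 + 1)} (hg : g ∈ G)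
    {B : Matrix (Fin m) (Fin m) F} {κ : Ten F m (t + 1) ≃ₗ[F] Ten F m (t + 1)}
    (hgB : ∀ u w, toS F m (t + 1) g (ins u w) = ins (B *ᵥ u) (κ w))
    {x y : Fin m → F} {N N' : Ten F m t →ₗ[F] Ten F m t} (ho : Orth (E.forms t) x y)
    (hκ : ∀ Z, toS F m t κ Z = Z + dq (E.forms t) N N' x y Z)
    (hN : ∀ c : F, N ≠ c • LinearMap.id) :
    ¬ NoPar (E.forms (t + 1)) ((conjG (Equiv.swap 0 1) G).map (toS F m (t + 1)).toMonoidHom) := by
  classical
  obtain ⟨e', e₂, h1, h2, h4, h5, h6⟩ := ho.exists_chain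
  obtain ⟨_, ⟨τ, hτ, rfl⟩, hτx⟩ := mem_dq_one
    (grp_toS (innerGroup_base hB) (innerGroup_iso hB hI)) h4.2.2
  simp only [MulEquiv.coe_toMonoidHom] at hτx
  -- `B` is surjective
  have hBs : Function.Surjective B.mulVec := by
    refine (LinearMap.injective_iff_surjective (f := B.mulVecLin)).1
      ((injective_iff_map_eq_zero _).2 fun v hv => ?_)
    by_contra hv0
    haveI : Nonempty (Fin (t + 1) → Fin m) := ⟨fun _ => ⟨0, by have := E.dim; omega⟩⟩
    obtain ⟨w, hw⟩ := exists_ne (0 : Ten F m (t + 1))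
    have h7 := hgB v w
    rw [show B *ᵥ v = 0 from hv, ins_zero, map_eq_zero_iff _ (toS F m (t + 1) g).injective] at h7
    exact hw (ins_injective hv0 (h7.trans (map_zero _).symm))
  have hmem : κ * τ * κ⁻¹ * τ⁻¹ ∈ innerGroup G := by
    refine Subgroup.mul_mem _ ?_ (Subgroup.inv_mem _ hτ)
    obtain ⟨f, hf, hfx⟩ := hτ
    refine ⟨g * f * g⁻¹, G.mul_mem (G.mul_mem hg hf) (G.inv_mem hg), fun u w => ?_⟩
    obtain ⟨u, rfl⟩ := hBs u
    have h7 : (toS F m (t + 1) g)⁻¹ (ins (B *ᵥ u) w) = ins u (κ⁻¹ w) :=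
      (toS F m (t + 1) g).injective (by rw [self_inv_apply, hgB, self_inv_apply])
    rw [map_mul, map_mul, map_inv, LinearEquiv.mul_apply, LinearEquiv.mul_apply, h7, hfx, hgB]
    rfl
  have hg₁ : (E.forms t).g e' y = 1 := h1
  have hg₁' : (E.forms t).g y e' = 1 := by rw [Forms.g_symm, hg₁]
  have hg₂' : (E.forms t).g x e' = 0 := by rw [Forms.g_symm, h2]
  have hg₃' : (E.forms t).g y e₂ = 0 := by rw [Forms.g_symm, h6]
  have hform : ∀ Z, toS F m t (κ * τ * κ⁻¹ * τ⁻¹) Z = Z + dq (E.forms t) N N' x e₂ Z := fun Z => by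
    simp only [map_mul, map_inv]
    rw [comm_apply hτx hκ ?_ ?_ ?_ ?_]
    · congr 1
      simp only [dq, LinearMap.add_apply, root_apply, map_add, map_smul, Forms.ev_eta_ins,
        LinearMap.id_apply, h4.2.2, h4.symm.2.2, h5.2.2, h5.symm.2.2, ho.2.2, ho.symm.2.2, hg₁,
        hg₁', h2, hg₂', h6, hg₃', (E.forms t).alt.alt, zero_smul, one_smul, smul_zero, map_zero,
        add_zero, zero_add, sub_eq_add_neg, Forms.neg_eq (E.forms t)]
    all_goals
      intro Z
      simp only [dq, LinearMap.add_apply, root_apply, map_add, map_smul, Forms.ev_eta_ins,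
        LinearMap.id_apply, h4.2.2, h4.symm.2.2, h5.2.2, h5.symm.2.2, ho.2.2, ho.symm.2.2, hg₁,
        hg₁', h2, hg₂', h6, hg₃', (E.forms t).alt.alt, zero_smul, one_smul, smul_zero, map_zero,
        add_zero, zero_add, sub_eq_add_neg, Forms.neg_eq (E.forms t)]
  obtain ⟨f, hf, hfx⟩ := hmem
  set sw := Equiv.swap (0 : Fin (t + 1 + 1)) 1 with hsw
  intro hP
  obtain ⟨c, hc⟩ := hP x e₂ (lift₁ N) (lift₁ N') h5
    ⟨_, Subgroup.mem_map_of_mem _ (mem_conjG hf), fun Z => by
      refine LinearMap.congr_fun (show (toS F m (t + 1) (perm F m sw * f * (perm F m sw)⁻¹)).toLinearMap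
        = LinearMap.id + dq (E.forms (t + 1)) (lift₁ N) (lift₁ N') x e₂ from
          LinearMap.ext (Forms.ext_ins fun b w => ?_)) Z
      obtain ⟨Y, rfl⟩ := (slice F m t).symm.surjective w
      revert Y
      suffices ∀ a p, toS F m (t + 1) (perm F m sw * f * (perm F m sw)⁻¹)
          (ins b ((slice F m t).symm (ins a p))) =
        ins b ((slice F m t).symm (ins a p)) +
          dq (E.forms (t + 1)) (lift₁ N) (lift₁ N') x e₂ (ins b ((slice F m t).symm (ins a p))) from
        fun Y => Forms.ext_ins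
          (f := (toS F m (t + 1) (perm F m sw * f * (perm F m sw)⁻¹)).toLinearMap ∘ₗ ins b ∘ₗ
            (slice F m t).symm.toLinearMap)
          (g := (LinearMap.id + dq (E.forms (t + 1)) (lift₁ N) (lift₁ N') x e₂) ∘ₗ ins b ∘ₗ
            (slice F m t).symm.toLinearMap) (fun a p => this a p) Y
      intro a p
      rw [perm_inv, hsw, Equiv.symm_swap, map_mul, map_mul, LinearEquiv.mul_apply,
        LinearEquiv.mul_apply, toS_swap, hfx,
        show (κ * τ * κ⁻¹ * τ⁻¹) ((slice F m t).symm (ins b p)) =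
          (slice F m t).symm (toS F m t (κ * τ * κ⁻¹ * τ⁻¹) (ins b p)) by
            rw [toS_apply, LinearEquiv.symm_apply_apply],
        hform]
      simp only [dq, LinearMap.add_apply, root_apply, map_add, Forms.ev_eta_ins, map_smul, toS_swap,
        lift₁_ins]
      rfl⟩
  have hm : 0 < m := by have := E.dim; omega
  apply hN c
  refine LinearMap.ext fun p => ?_
  have h7 := congrArg (slice F m t) (LinearMap.congr_fun hc
    ((slice F m t).symm (ins (Pi.single ⟨0, hm⟩ (1 : F)) p)))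
  rw [lift₁_ins, LinearMap.smul_apply, LinearMap.id_apply, ← map_smul, LinearEquiv.apply_symm_apply,
    LinearEquiv.apply_symm_apply, ← map_smul] at h7
  exact ins_injective (by simp) h7

lemma conjG_one (G : Subgroup (Ten F m t ≃ₗ[F] Ten F m t)) : conjG 1 G = G := by
  ext g
  have h0 : perm F m (1 : Equiv.Perm (Fin t)) = 1 :=
    LinearEquiv.toLinearMap_injective (ext_pvec fun us => by
      simp only [LinearEquiv.coe_coe, perm_pvec]; rfl)
  simp [conjG, h0]

lemma conjG_conjG (σ τ : Equiv.Perm (Fin t)) (G : Subgroup (Ten F m t ≃ₗ[F] Ten F m t)) :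
    conjG σ (conjG τ G) = conjG (σ * τ) G := by
  have h0 : perm F m (σ * τ) = perm F m σ * perm F m τ :=
    LinearEquiv.toLinearMap_injective (ext_pvec fun us => by
      simp only [LinearEquiv.coe_coe, perm_pvec, LinearEquiv.mul_apply]; rfl)
  rw [conjG, conjG, conjG, Subgroup.map_map, h0]
  congr 1

lemma toS_perm (σ : Equiv.Perm (Fin t)) (u : Fin m → F) (w : Ten F m t) :
    toS F m t (perm F m (Equiv.Perm.decomposeFin.symm ((0 : Fin (t + 1)), σ))) (ins u w) =
      ins u (perm F m σ w) := by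
  refine LinearMap.congr_fun (ext_pvec
    (f := (toS F m t (perm F m (Equiv.Perm.decomposeFin.symm ((0 : Fin (t + 1)), σ)))).toLinearMap
      ∘ₗ ins u) (g := ins u ∘ₗ (perm F m σ).toLinearMap) fun us => ?_) w
  rw [LinearMap.comp_apply, LinearMap.comp_apply, LinearEquiv.coe_coe, LinearEquiv.coe_coe,
    perm_pvec, toS_apply, slice_symm_ins_pvec]
  refine (slice F m t).eq_symm_apply.1 ?_
  rw [slice_symm_ins_pvec, perm_pvec]
  congr 1
  funext i
  obtain ⟨i, rfl⟩ := (Equiv.Perm.decomposeFin.symm ((0 : Fin (t + 1)), σ)).surjective i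
  rw [Equiv.symm_apply_apply]
  refine Fin.cases ?_ (fun i => ?_) i <;> simp

/-- A parameter of the last factors gives one of a conjugate. -/
lemma not_noPar_of_tail {G : Subgroup (Ten F m (t + 1 + 1) ≃ₗ[F] Ten F m (t + 1 + 1))}
    (hB : BaseS E G) (hI : IsoS E G) {σ : Equiv.Perm (Fin (t + 1))}
    (h : ¬ NoPar (E.forms t) ((conjG σ (tailS E G)).map (toS F m t).toMonoidHom)) :
    ∃ τ, ¬ NoPar (E.forms (t + 1)) ((conjG τ G).map (toS F m (t + 1)).toMonoidHom) := by
  simp only [NoPar] at h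
  push Not at h
  obtain ⟨x, y, N, N', ho, ⟨_, ⟨_, ⟨κ, hκ, rfl⟩, rfl⟩, hx⟩, hN⟩ := h
  obtain ⟨g, hg, B, hgB⟩ := (Subgroup.mem_inf.1 hκ).1
  set σ' := Equiv.Perm.decomposeFin.symm ((0 : Fin (t + 1 + 1)), σ) with hσ'
  refine ⟨Equiv.swap 0 1 * σ', ?_⟩
  rw [← conjG_conjG]
  refine exists_param_of_tail (baseS_conj hB σ') (isoS_conj hI σ') (mem_conjG hg) (B := B)
    (κ := perm F m σ * κ * (perm F m σ)⁻¹) (fun u w => ?_) ho (fun Z => hx Z) hN
  have hinv : (toS F m (t + 1) (perm F m σ'))⁻¹ (ins u w) = ins u ((perm F m σ)⁻¹ w) := by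
    refine (toS F m (t + 1) (perm F m σ')).injective ?_
    rw [self_inv_apply, hσ', toS_perm, self_inv_apply]
  rw [map_mul, map_mul, map_inv, LinearEquiv.mul_apply, LinearEquiv.mul_apply, hinv, hgB, hσ',
    toS_perm]
  rfl

/-- The dichotomy. -/
theorem monomial_or_param :
    ∀ t (G : Subgroup (Ten F m (t + 1) ≃ₗ[F] Ten F m (t + 1))), BaseS E G → IsoS E G → AltP G →
      G ≤ monomial F m (t + 1) ∨
        ∃ σ, ¬ NoPar (E.forms t) ((conjG σ G).map (toS F m t).toMonoidHom) := by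
  classical
  intro t
  induction t with
  | zero => exact fun G _ _ _ => Or.inl fun g _ => monomial_one g
  | succ t ih =>
    intro G hB hI hPerm
    by_cases hnp : ∀ σ, NoPar (E.forms (t + 1)) ((conjG σ G).map (toS F m (t + 1)).toMonoidHom)
    swap
    · push Not at hnp
      exact Or.inr hnp
    left
    have hm4 : 4 ≤ m := by have := E.dim; omega
    haveI : Nonempty (Fin (t + 1) → Fin m) := ⟨fun _ => ⟨0, by omega⟩⟩
    set G0 := G.map (toS F m (t + 1)).toMonoidHom
    set N0 := (monomial F m (t + 1 + 1)).map (toS F m (t + 1)).toMonoidHom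
    have hG : Grp (E.forms (t + 1)) G0 := grp_toS hB hI
    have hP : NoPar (E.forms (t + 1)) G0 := by
      have h1 := hnp 1
      rwa [conjG_one] at h1
    have htail : ∀ κ ∈ tailS E G, κ ∈ monomial F m (t + 1) := by
      intro κ hκ
      rcases ih (tailS E G) (baseS_tail hB hI) (fun g hg => (Subgroup.mem_inf.1 hg).2)
          (altP_tail (by omega) hB hI hPerm) with h | ⟨σ, hσ⟩
      · exact h hκ
      · obtain ⟨τ, hτ⟩ := not_noPar_of_tail hB hI hσ
        exact absurd (hnp τ) hτ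
    -- `hB1`
    have hB1 : ∀ g ∈ G, ∀ v v' : Fin m → F, v ≠ 0 →
        (∀ w, toS F m (t + 1) g (ins v w) ∈ line (Ten F m (t + 1)) v') →
        g ∈ monomial F m (t + 1 + 1) := by
      intro g hg v v' hv0 hline
      obtain ⟨B, k, hBk⟩ := (Carry.refl hG hP (Subgroup.mem_map_of_mem _ hg)).isT_of_line hv0 hline
      obtain ⟨c, hc, hmem⟩ := normalise hB hI hg hBk
      exact mem_monomial_of_isT hBk
        ((Subgroup.mul_mem_cancel_left _ (scal_mem hc (by omega))).1 (htail _ hmem))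
    suffices G0 ≤ N0 by
      intro g hg
      exact (Subgroup.mem_map_iff_mem (toS F m (t + 1)).injective).1
        (this (Subgroup.mem_map_of_mem _ hg))
    refine split_le hG hP ?_ ?_
    · rintro _ ⟨g, hg, rfl⟩ v v' hv0 hline
      exact Subgroup.mem_map_of_mem _ (hB1 g hg v v' hv0 hline)
    rintro _ ⟨g, hg, rfl⟩ hxN v hv0
    simp only [MulEquiv.coe_toMonoidHom] at hxN ⊢
    have hgN : g ∉ monomial F m (t + 1 + 1) := fun h => hxN (Subgroup.mem_map_of_mem _ h)
    by_contra hcon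
    push Not at hcon
    obtain ⟨τ, hτ, hτx⟩ := hG.trv v 1
    have hτx' : ∀ X, τ X = X + (1 : F) • ins v (evs (E.forms (t + 1)) v X) := fun X => by
      rw [hτx]; rfl
    obtain ⟨n, ⟨σ, A, hA⟩, hnx⟩ := hcon 1 τ hτ hτx'
    obtain ⟨y, hy⟩ := (E.forms (t + 1)).exists_dual_vec hv0
    let Tc : Ten F m (t + 1 + 1) → Ten F m (t + 1 + 1) := fun X =>
      (slice F m (t + 1)).symm ((toS F m (t + 1) g)⁻¹
        (ins v (evs (E.forms (t + 1)) v (toS F m (t + 1) g (slice F m (t + 1) X)))))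
    have hn : ∀ X, n X = X + Tc X := fun X => by
      refine (slice F m (t + 1)).injective ?_
      have h1 : toS F m (t + 1) n (slice F m (t + 1) X) =
          ((toS F m (t + 1) g)⁻¹ * τ * toS F m (t + 1) g) (slice F m (t + 1) X) :=
        congrArg (fun e : (Fin m → Ten F m (t + 1)) ≃ₗ[F] (Fin m → Ten F m (t + 1)) =>
          e (slice F m (t + 1) X)) hnx
      rw [LinearEquiv.mul_apply, LinearEquiv.mul_apply, hτx', map_add, inv_apply_self, toS_apply,
        LinearEquiv.symm_apply_apply, one_smul] at h1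
      rw [h1, map_add, LinearEquiv.apply_symm_apply]
    have hsq : ∀ X, n (n X - X) = n X - X := fun X => by
      rw [hn (n X - X), hn X, add_sub_cancel_left]
      simp only [Tc, LinearEquiv.apply_symm_apply, self_inv_apply, Forms.evs_ins,
        (E.forms (t + 1)).alt.alt, zero_smul, map_zero, add_zero]
    have hrank : finrank F (LinearMap.range (n.toLinearMap - LinearMap.id)) * m ≤
        m ^ (t + 1 + 1) := by
      rw [pow_succ]
      refine Nat.mul_le_mul_right m ?_
      rw [← finrank_ten (F := F) (m := m) (t := t + 1)]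
      refine (Submodule.finrank_mono (t := LinearMap.range ((slice F m (t + 1)).symm.toLinearMap ∘ₗ
        ((toS F m (t + 1) g)⁻¹ : _ ≃ₗ[F] _).toLinearMap ∘ₗ ins (W := Ten F m (t + 1)) v)) ?_).trans
          (LinearMap.finrank_range_le _)
      rintro _ ⟨X, rfl⟩
      refine ⟨evs (E.forms (t + 1)) v (toS F m (t + 1) g (slice F m (t + 1) X)), ?_⟩
      simp [hn, Tc, -ev_apply, -ins_apply]
    have hne : n ≠ 1 := fun h1 => by
      obtain ⟨w, hw⟩ := exists_ne (0 : Ten F m (t + 1))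
      have h2 := hn ((slice F m (t + 1)).symm ((toS F m (t + 1) g)⁻¹ (ins y w)))
      rw [h1] at h2
      simp only [Tc, LinearEquiv.apply_symm_apply, self_inv_apply, Forms.evs_ins, hy, one_smul] at h2
      have h3 := add_eq_left.1 h2.symm
      rw [LinearEquiv.map_eq_zero_iff, LinearEquiv.map_eq_zero_iff] at h3
      exact hw (ins_injective hv0 (h3.trans (map_zero _).symm))
    have hσ1 : σ = 1 := by
      by_contra h1
      exact false_of_ne_one hm4 hA hsq hrank h1
    subst hσ1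
    obtain ⟨j, s, hs, hblock⟩ := exists_bspan (by omega) _ A n hA hsq hrank hne
    have himg : ∀ w, g⁻¹ ((slice F m (t + 1)).symm (ins v w)) ∈ bspan j s := fun w => by
      have h2 := hblock ((slice F m (t + 1)).symm ((toS F m (t + 1) g)⁻¹ (ins y w)))
      rw [hn, add_sub_cancel_left] at h2
      simp only [Tc, LinearEquiv.apply_symm_apply, self_inv_apply, Forms.evs_ins, hy, one_smul] at h2
      rw [← map_inv, toS_apply, LinearEquiv.symm_apply_apply] at h2
      exact h2
    -- images of blocks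
    have hslice : ∀ s : Fin m → F, (bspan (0 : Fin (t + 1 + 1)) s).map
        (slice F m (t + 1)).toLinearMap ≤ line (Ten F m (t + 1)) s := fun s => by
      rw [bspan, Submodule.map_span_le]
      rintro _ ⟨us, hus, rfl⟩
      rw [LinearEquiv.coe_coe, slice_pvec, show us 0 = s from hus]
      exact ⟨_, rfl⟩
    have hmove : ∀ (P : Ten F m (t + 1 + 1) ≃ₗ[F] Ten F m (t + 1 + 1))
        (π : Equiv.Perm (Fin (t + 1 + 1))) (B : Fin (t + 1 + 1) → Matrix (Fin m) (Fin m) F),
        π 0 = j → Wit π B P →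
        ∀ w, toS F m (t + 1) (P * g⁻¹) (ins v w) ∈ line (Ten F m (t + 1)) (B 0 *ᵥ s) :=
      fun P π B hπ hP' w => by
      have hle : (bspan j s).map P.toLinearMap ≤ bspan 0 (B 0 *ᵥ s) := by
        rw [bspan, Submodule.map_span_le]
        rintro _ ⟨us, hus, rfl⟩
        rw [LinearEquiv.coe_coe, hP']
        refine Submodule.subset_span ⟨_, ?_, rfl⟩
        simp [hπ, show us j = s from hus]
      exact hslice _ ⟨_, hle ⟨_, himg w, rfl⟩, rfl⟩
    rcases eq_or_ne j 0 with rfl | hj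
    · refine hgN ((Subgroup.inv_mem_iff _).1 (hB1 g⁻¹ (G.inv_mem hg) v s hv0 fun w => ?_))
      exact hslice _ ⟨_, himg w, rfl⟩
    rcases Nat.eq_zero_or_pos t with rfl | h2
    · set σ := Equiv.swap (0 : Fin 2) j with hσ
      have hline : ∀ w, toS F m 1 (perm F m σ * g⁻¹) (ins v w) ∈ line (Ten F m 1) s := fun w => by
        simpa using hmove (perm F m σ) σ (fun _ => 1) (Equiv.swap_apply_left _ _)
          (by have := wit_perm (F := F) (m := m) σ; rwa [hσ, Equiv.symm_swap] at this) w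
      have hC : Carry (E.forms 1) G0 ((conjG σ G).map (toS F m 1).toMonoidHom)
          (toS F m 1 (perm F m σ * g⁻¹)) := by
        refine ⟨hG, grp_toS (baseS_conj hB σ) (isoS_conj hI σ), hP, hnp σ, fun X Y => ?_, ?_, ?_⟩
        · rw [toS_apply, toS_apply, E.bV_slice, LinearEquiv.mul_apply, LinearEquiv.mul_apply,
            E.bT_perm, hI _ (G.inv_mem hg), ← E.bV_slice, LinearEquiv.apply_symm_apply,
            LinearEquiv.apply_symm_apply]
        · rintro _ ⟨f, hf, rfl⟩
          refine ⟨perm F m σ * (g⁻¹ * f * g) * (perm F m σ)⁻¹,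
            mem_conjG (G.mul_mem (G.mul_mem (G.inv_mem hg) hf) hg), ?_⟩
          simp only [MulEquiv.coe_toMonoidHom, map_mul, map_inv, _root_.mul_inv_rev]
          group
        · rintro _ ⟨_, ⟨f, hf, rfl⟩, rfl⟩
          refine ⟨g * f * g⁻¹, G.mul_mem (G.mul_mem hg hf) (G.inv_mem hg), ?_⟩
          simp only [MulEquiv.coe_toMonoidHom, MulAut.conj_apply, map_mul, map_inv,
            _root_.mul_inv_rev]
          group
      obtain ⟨B, k, hBk⟩ := hC.isT_of_line hv0 hline
      have h1 := mem_monomial_of_isT hBk (monomial_one k)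
      rw [Subgroup.mul_mem_cancel_left _ (show perm F m σ ∈ monomial F m _ from ⟨_, _, wit_perm σ⟩),
        Subgroup.inv_mem_iff] at h1
      exact hgN h1
    · obtain ⟨l, hl0, hlj⟩ : ∃ l : Fin (t + 1 + 1), l ≠ 0 ∧ l ≠ j := by
        obtain ⟨l, -, hl⟩ := Finset.exists_mem_notMem_of_card_lt_card
          (s := ({0, j} : Finset (Fin (t + 1 + 1)))) (t := Finset.univ)
          (Finset.card_le_two.trans_lt (by simp; omega))
        exact ⟨l, by simp at hl; exact hl.1, by simp at hl; exact hl.2⟩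
      obtain ⟨P, hPG, B, hPB⟩ := hPerm (Equiv.swap 0 j * Equiv.swap j l) (by
        rw [map_mul, Equiv.Perm.sign_swap hj.symm, Equiv.Perm.sign_swap hlj.symm]; decide)
      have hπ : (Equiv.swap 0 j * Equiv.swap j l) 0 = j := by
        rw [Equiv.Perm.mul_apply, Equiv.swap_apply_of_ne_of_ne hj.symm hl0.symm,
          Equiv.swap_apply_left]
      have := hB1 _ (G.mul_mem hPG (G.inv_mem hg)) v _ hv0 (hmove P _ B hπ hPB)
      rw [Subgroup.mul_mem_cancel_left _ (show P ∈ monomial F m _ from ⟨_, _, hPB⟩),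
        Subgroup.inv_mem_iff] at this
      exact hgN this

end Cfsg.Agent.MaxSub.TensorPowSp.Even
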