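import Cfsg.Agent.MaxSub.TensorPowSp.Even.NSet
import Cfsg.Agent.MaxSub.TensorPowSp.Even.Extract
import Cfsg.Agent.MaxSub.TensorPowSp.Even.Main

/-!
A non-scalar parameter gives the root elements of a pair at one factor and the rank-one maps at all
the others.
-/

set_option autoImplicit false
set_option linter.unusedSectionVars false
set_option linter.unusedSimpArgs false
set_option linter.style.haveILetI false

namespace Cfsg.Agent.MaxSub.TensorPowSp.Even

open Module Matrix Cfsg.Agent.MaxSub.TensorPow Cfsg.Agent.GeoClasses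
open Cfsg.Agent.MaxSub.ExtField (Mem inv_apply_self self_inv_apply)

universe u

variable {F : Type u} [Field F] [Finite F] {m t : ℕ} {E : Env F m}

lemma rk_mul (a b c d : Fin m → F) : rk E a b * rk E c d = E.g c b • rk E a d := by
  rw [rk, rk, vecMulVec_mul_vecMulVec, vecMulVec_smul,
    show (fun i => E.g (Pi.single i 1) b) ⬝ᵥ c = E.g c b from (E.forms 0).eta_dot b c]
  rfl

lemma rk_add_left (a a' b : Fin m → F) : rk E (a + a') b = rk E a b + rk E a' b :=
  add_vecMulVec _ _ _

lemma rk_add_right (a b b' : Fin m → F) : rk E a (b + b') = rk E a b + rk E a b' := by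
  ext i j; simp [rk, vecMulVec_apply, mul_add]

lemma rk_smul_left (c : F) (a b : Fin m → F) : rk E (c • a) b = c • rk E a b :=
  smul_vecMulVec _ _ _

lemma rk_smul_right (c : F) (a b : Fin m → F) : rk E a (c • b) = c • rk E a b := by
  ext i j; simp [rk, vecMulVec_apply, mul_left_comm]

lemma Env.g_symm (E : Env F m) (x y : Fin m → F) : E.g x y = E.g y x := (E.forms 0).g_symm x y

/-- A transvection moves a pair. -/
lemma Sd_conj (u z w : Fin m → F) (s : F) :
    (1 + s • rk E u u) * Sd E z w * (1 + s • rk E u u) =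
      Sd E (z + (s * E.g z u) • u) (w + (s * E.g w u) • u) := by
  simp only [Sd, mul_add, add_mul, one_mul, mul_one, smul_mul_assoc, mul_smul_comm, rk_mul,
    rk_add_left, rk_add_right, rk_smul_left, rk_smul_right, smul_smul, smul_add, E.g_symm u w,
    E.g_symm u z]
  module

lemma exists_two {a b : Fin m → F} (ha : a ≠ 0) (hb : b ≠ 0) :
    ∃ u v, E.g u a = 1 ∧ E.g v u = 1 ∧ E.g b v = 1 := by
  obtain ⟨u₀, hu₀⟩ := (E.forms 0).exists_dual_vec ha
  change E.g u₀ a = 1 at hu₀
  obtain ⟨u, hu, hub⟩ : ∃ u, E.g u a = 1 ∧ u ∉ F ∙ b := by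
    by_cases h : u₀ ∈ F ∙ b
    · refine ⟨u₀ + a, by rw [map_add, LinearMap.add_apply, hu₀, E.alt.alt, add_zero], fun h' => ?_⟩
      have hab : a ∈ F ∙ b := by simpa using sub_mem h' h
      obtain ⟨c, hc⟩ := Submodule.mem_span_singleton.1 hab
      obtain ⟨d, hd⟩ := Submodule.mem_span_singleton.1 h
      rw [← hc, ← hd] at hu₀
      simp [E.alt.alt] at hu₀
    · exact ⟨u₀, hu₀, h⟩
  have hu0 : u ≠ 0 := fun h0 => by simp [h0] at hu
  have hbu : b ∉ F ∙ u := fun h => by
    obtain ⟨c, hc⟩ := Submodule.mem_span_singleton.1 h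
    have hc0 : c ≠ 0 := fun h0 => hb (by rw [← hc, h0, zero_smul])
    exact hub (Submodule.mem_span_singleton.2 ⟨c⁻¹, by rw [← hc, inv_smul_smul₀ hc0]⟩)
  obtain ⟨c₁, h1, h1'⟩ := E.alt.exists_pair hub
  obtain ⟨c₂, h2, h2'⟩ := E.alt.exists_pair hbu
  exact ⟨u, c₁ + c₂, hu, by rw [map_add, LinearMap.add_apply, h1, h2', add_zero],
    by rw [E.g_symm, map_add, LinearMap.add_apply, h1', h2, zero_add]⟩

/-- Two vectors of a pair give a rank-one map as a product of pairs. -/
lemma exists_rk_two {a w : Fin m → F} (h : E.Orth a w) :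
    ∃ z z' u u', E.Orth z z' ∧ E.Orth u u' ∧ Sd E z z' * Sd E u u' = rk E a w := by
  obtain ⟨z', hz', hperp⟩ := (E.forms 0).exists_perp_avoid ![a, w] (Submodule.span F {a, w})
    (by have := (E.forms 0).finrank_span_pair a w; have := E.dim; omega)
  have h1 : E.g z' a = 0 := hperp 0
  have h2 : E.g z' w = 0 := hperp 1
  obtain ⟨c, hc, hcS⟩ : ∃ c, E.g c z' = 1 ∧ ∀ x ∈ Submodule.span F {a, w}, E.g c x = 0 := by
    obtain ⟨φ, hφ, hφ0⟩ := Submodule.exists_dual_map_eq_bot_of_notMem hz' inferInstance
    obtain ⟨c, hc⟩ := E.alt.exists_dual ((φ z')⁻¹ • φ)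
    refine ⟨c, by simp [hc, hφ], fun x hx => ?_⟩
    have : φ x = 0 := (Submodule.eq_bot_iff _).1 hφ0 _ ⟨x, hx, rfl⟩
    simp [hc, this]
  have hca : E.g c a = 0 := hcS a (Submodule.subset_span (by simp))
  have hcw : E.g c w = 0 := hcS w (Submodule.subset_span (by simp))
  refine ⟨a, z', c, w, ⟨h.1, fun hm => hz' (Submodule.span_mono (by simp) hm),
    by rw [E.g_symm, h1]⟩, ⟨fun h0 => by simp [h0] at hc, fun hm => ?_, hcw⟩, ?_⟩
  · obtain ⟨r, hr⟩ := Submodule.mem_span_singleton.1 hm
    rw [← hr, map_smul, smul_eq_mul, E.g_symm z' c, hc, mul_one] at h2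
    exact h.2.1 (by rw [← hr, h2, zero_smul]; exact zero_mem _)
  · simp only [Sd, mul_add, add_mul, rk_mul, hca, hc, hcw, E.g_symm w a, h.2.2, E.g_symm w z', h2,
      zero_smul, one_smul, add_zero, zero_add]

/-- Any rank-one map is a product of four pairs. -/
lemma exists_rk_four {a b : Fin m → F} (ha : a ≠ 0) (hb : b ≠ 0) :
    ∃ z : Fin 4 → (Fin m → F) × (Fin m → F), (∀ k, E.Orth (z k).1 (z k).2) ∧
      Sd E (z 0).1 (z 0).2 * Sd E (z 1).1 (z 1).2 * (Sd E (z 2).1 (z 2).2 * Sd E (z 3).1 (z 3).2) =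
        rk E a b := by
  obtain ⟨w, hw, hperp⟩ := (E.forms 0).exists_perp_avoid ![a, b] (Submodule.span F {a, b})
    (by have := (E.forms 0).finrank_span_pair a b; have := E.dim; omega)
  have hwa : E.g w a = 0 := hperp 0
  have hwb' : E.g w b = 0 := hperp 1
  have hwb : w ∉ F ∙ b := fun hm => hw (Submodule.span_mono (by simp) hm)
  obtain ⟨z, hz, hzb⟩ := E.alt.exists_pair hwb
  have hzb' : b ∉ F ∙ z := fun hm => by
    obtain ⟨r, hr⟩ := Submodule.mem_span_singleton.1 hm
    rw [E.g_symm, ← hr, map_smul, LinearMap.smul_apply, hz, smul_eq_mul, mul_one] at hwb'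
    exact hb (by rw [← hr, hwb', zero_smul])
  obtain ⟨p, p', q, q', o1, o2, e1⟩ := exists_rk_two (E := E) (a := a) (w := w)
    ⟨ha, fun hm => hw (Submodule.span_mono (by simp) hm), by rw [E.g_symm, hwa]⟩
  obtain ⟨r, r', s, s', o3, o4, e2⟩ := exists_rk_two (E := E) (a := z) (w := b)
    ⟨fun h0 => by simp [h0] at hz, hzb', hzb⟩
  refine ⟨![(p, p'), (q, q'), (r, r'), (s, s')], fun k => by fin_cases k <;> assumption, ?_⟩
  simp only [Matrix.cons_val]
  rw [e1, e2, rk_mul, hz, one_smul]

/-- A product of maps at the factors of `U`. -/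
def PU (U : Finset (Fin t)) (X : Fin t → Matrix (Fin m) (Fin m) F) :
    Matrix (Fin t → Fin m) (Fin t → Fin m) F :=
  pureMat fun i => if i ∈ U then X i else 1

lemma PU_mul (U : Finset (Fin t)) (X Y : Fin t → Matrix (Fin m) (Fin m) F) :
    PU U X * PU U Y = PU U fun i => X i * Y i := by
  rw [PU, PU, pureMat_mul, PU]
  congr 1
  funext i
  split_ifs <;> simp

lemma PU_congr {U : Finset (Fin t)} {X Y : Fin t → Matrix (Fin m) (Fin m) F}
    (h : ∀ i ∈ U, X i = Y i) : PU U X = PU U Y := by
  rw [PU, PU]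
  congr 1
  funext i
  split_ifs with hi
  · exact h i hi
  · rfl

variable (E) in
/-- The matrices of the maps occurring at the pairs of the first factor. -/
def PS (G : Subgroup (Ten F m (t + 1) ≃ₗ[F] Ten F m (t + 1)))
    (M : Matrix (Fin t → Fin m) (Fin t → Fin m) F) : Prop :=
  Nset (E.forms t) (G.map (toS F m t).toMonoidHom) (Matrix.toLin' M)

variable (E) in
/-- All rank-one maps at the factors of `U` occur. -/
def AllRk (G : Subgroup (Ten F m (t + 1) ≃ₗ[F] Ten F m (t + 1))) (U : Finset (Fin t)) : Prop :=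
  ∀ a b : Fin t → Fin m → F, (∀ i, a i ≠ 0) → (∀ i, b i ≠ 0) →
    PS E G (PU U fun i => rk E (a i) (b i))

variable {G : Subgroup (Ten F m (t + 1) ≃ₗ[F] Ten F m (t + 1))} (hB : BaseS E G) (hI : IsoS E G)
include hB hI

lemma PS_mul {M M' : Matrix (Fin t → Fin m) (Fin t → Fin m) F} (h : PS E G M) (h' : PS E G M') :
    PS E G (M * M') := by
  have := Nset.comp (grp_toS hB hI) h h'
  rwa [← Matrix.toLin'_mul] at this

lemma PS_conj {M : Matrix (Fin t → Fin m) (Fin t → Fin m) F} (h : PS E G M) (j : Fin t)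
    (u : Fin m → F) (s : F) :
    PS E G (pos j (1 + s • rk E u u) * M * pos j (1 + s • rk E u u)) := by
  obtain ⟨κ, ⟨g, hg, hgk⟩, hκ⟩ := innerGroup_base hB j u s
  have hpos : pos j (1 + s • rk E u u) =
      (1 : Matrix (Fin t → Fin m) (Fin t → Fin m) F) + s • pos j (rk E u u) := by
    show posL j (1 + s • rk E u u) = _
    rw [map_add, map_smul]
    congr 1
    show pureMat (Function.update (fun _ => 1) j 1) = 1
    rw [Function.update_eq_self (f := fun _ => (1 : Matrix (Fin m) (Fin m) F)), pureMat_one]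
  have hk : κ.toLinearMap = Matrix.toLin' (pos j (1 + s • rk E u u)) := LinearMap.ext fun X => by
    rw [hpos, map_add, map_smul, Matrix.toLin'_one, LinearEquiv.coe_coe, hκ]
    rfl
  have hk' : κ.symm.toLinearMap = κ.toLinearMap := LinearMap.ext fun X => κ.injective (by
    have hsq : (1 + s • rk E u u) * (1 + s • rk E u u) = 1 := by
      simp only [mul_add, add_mul, one_mul, mul_one, smul_mul_assoc, mul_smul_comm, rk_mul,
        E.alt.alt, zero_smul, smul_zero, add_zero, add_assoc, ← two_smul F (s • rk E u u), E.h2]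
    have e : κ.toLinearMap ∘ₗ κ.toLinearMap = LinearMap.id := by
      rw [hk, ← Matrix.toLin'_mul, pos_mul, hsq]
      show Matrix.toLin' (pureMat _) = _
      rw [Function.update_eq_self (f := fun _ => (1 : Matrix (Fin m) (Fin m) F)), pureMat_one,
        Matrix.toLin'_one]
    rw [LinearEquiv.coe_coe, LinearEquiv.apply_symm_apply]
    exact (LinearMap.congr_fun e X).symm)
  have := Nset.conj h (Subgroup.mem_map_of_mem _ hg) (κ := κ) hgk
  rw [hk', hk, ← Matrix.toLin'_mul, ← Matrix.toLin'_mul, ← mul_assoc] at this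
  exact this

/-- All pairs at the factors of `U`. -/
lemma all_pairs {U : Finset (Fin t)} {z w z' w' : Fin t → Fin m → F}
    (ho : ∀ i ∈ U, E.Orth (z i) (w i)) (ho' : ∀ i ∈ U, E.Orth (z' i) (w' i))
    (h : PS E G (PU U fun i => Sd E (z i) (w i))) :
    PS E G (PU U fun i => Sd E (z' i) (w' i)) := by
  classical
  let H : Finset (Fin t) → Fin t → Matrix (Fin m) (Fin m) F := fun D i =>
    if i ∈ D then Sd E (z' i) (w' i) else Sd E (z i) (w i)
  have key : ∀ D, D ⊆ U → PS E G (PU U (H D)) := by
    intro D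
    induction D using Finset.induction with
    | empty => intro _; simpa [H] using h
    | insert j D hj ih =>
      intro hD
      obtain ⟨hjU, hDU⟩ := Finset.insert_subset_iff.1 hD
      have h0 := ih hDU
      have hQ := orth_transitive (E.forms 0)
        (Q := fun a b => PS E G (PU U (Function.update (H D) j (Sd E a b))))
        (fun c s a b _ hab => by
          have h1 := PS_conj hB hI hab j c s
          have e : pos j (1 + s • rk E c c) * PU U (Function.update (H D) j (Sd E a b)) *
              pos j (1 + s • rk E c c) = PU U (Function.update (H D) j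
                (Sd E (a + (s * E.g a c) • c) (b + (s * E.g b c) • c))) := by
            rw [← Sd_conj, pos, PU, pureMat_mul, pureMat_mul, PU]
            congr 1
            funext i
            rcases eq_or_ne i j with rfl | hi
            · simp [hjU]
            · simp [Function.update_of_ne hi]
          rwa [e] at h1)
        (ho j hjU) (ho' j hjU) (by
          rwa [show Sd E (z j) (w j) = H D j by simp [H, hj], Function.update_eq_self])
      have e : Function.update (H D) j (Sd E (z' j) (w' j)) = H (insert j D) := by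
        funext i
        rcases eq_or_ne i j with rfl | hi
        · simp [H]
        · simp [H, Function.update_of_ne hi, hi]
      rwa [e] at hQ
  have := key U Finset.Subset.rfl
  rwa [PU_congr (Y := fun i => Sd E (z' i) (w' i)) fun i hi => if_pos hi] at this

/-- Pairs at the factors of `U` give all rank-one maps there. -/
lemma allRk_of_pairs {U : Finset (Fin t)} {z w : Fin t → Fin m → F}
    (ho : ∀ i ∈ U, E.Orth (z i) (w i)) (h : PS E G (PU U fun i => Sd E (z i) (w i))) :
    AllRk E G U := by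
  intro a b ha hb
  choose p hp hpe using fun i => exists_rk_four (E := E) (ha i) (hb i)
  have h1 : ∀ k, PS E G (PU U fun i => Sd E (p i k).1 (p i k).2) := fun k =>
    all_pairs hB hI ho (fun i _ => hp i k) h
  have h2 := PS_mul hB hI (PS_mul hB hI (h1 0) (h1 1)) (PS_mul hB hI (h1 2) (h1 3))
  simp only [PU_mul] at h2
  simpa [hpe] using h2

/-- The factors of two sets combine. -/
lemma AllRk.union {U T : Finset (Fin t)} (hU : AllRk E G U) (hT : AllRk E G T) :
    AllRk E G (U ∪ T) := by
  classical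
  intro a b ha hb
  choose c hc using fun i => (E.forms 0).exists_dual_vec (ha i)
  have hc0 : ∀ i, c i ≠ 0 := fun i h0 => by
    have := hc i; rw [h0, map_zero, LinearMap.zero_apply] at this; exact zero_ne_one this
  have h := PS_mul hB hI
    (hU a (fun i => if i ∈ T then c i else b i) ha (fun i => by split_ifs <;> simp_all))
    (hT a b ha hb)
  convert h using 1
  rw [PU, PU, PU, pureMat_mul]
  congr 1
  funext i
  by_cases h1 : i ∈ U <;> by_cases h2 : i ∈ T <;> simp [h1, h2, rk_mul, E.g_symm (a i) (c i),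
    show E.g (c i) (a i) = 1 from hc i]

omit hB hI in
lemma mem_sl {D : (Fin m → Ten F m t) →ₗ[F] (Fin m → Ten F m t)} :
    Mem (G.map (toS F m t).toMonoidHom) D ↔ Mem G (sl D) := by
  constructor
  · rintro ⟨_, ⟨g, hg, rfl⟩, hx⟩
    refine ⟨g, hg, fun X => (slice F m t).injective ?_⟩
    have := hx (slice F m t X)
    rw [MulEquiv.coe_toMonoidHom, toS_apply, LinearEquiv.symm_apply_apply] at this
    simp [sl, this]
  · rintro ⟨g, hg, hx⟩
    refine ⟨_, Subgroup.mem_map_of_mem _ hg, fun Y => ?_⟩
    simp [toS_apply, hx, sl]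

omit hB hI in
/-- Maps with a multiple of the identity or of a symmetric rank-one map everywhere are self
adjoint. -/
lemma bT_PU (U : Finset (Fin t)) (z : Fin t → Fin m → F) (c : F) (X Y : Ten F m t) :
    E.bT t ((c • Matrix.toLin' (PU U fun i => rk E (z i) (z i))) X) Y =
      E.bT t X ((c • Matrix.toLin' (PU U fun i => rk E (z i) (z i))) Y) := by
  have hrk : ∀ (p : Fin m → F) (x y : Fin m → F),
      E.g (rk E p p *ᵥ x) y = E.g x (rk E p p *ᵥ y) := fun p x y => by
    have e : ∀ x, rk E p p *ᵥ x = E.g x p • p := fun x => by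
      rw [rk, vecMulVec_mulVec, op_smul_eq_smul,
        show (fun i => E.g (Pi.single i 1) p) ⬝ᵥ x = E.g x p from (E.forms 0).eta_dot p x]
    rw [e, e, map_smul, LinearMap.smul_apply, map_smul, E.g_symm p y, smul_eq_mul, smul_eq_mul,
      mul_comm]
  set N := Matrix.toLin' (PU U fun i => rk E (z i) (z i))
  have h : ∀ X Y, E.bT t (N X) Y = E.bT t X (N Y) := fun X Y => by
    refine LinearMap.congr_fun₂ (ext_pvec₂ (f := (E.bT t).compl₁₂ N LinearMap.id)
      (f' := (E.bT t).compl₁₂ LinearMap.id N) fun us vs => ?_) X Y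
    simp only [LinearMap.compl₁₂_apply, LinearMap.id_apply, N, PU, Matrix.toLin'_apply, pureMat_pvec,
      E.bT_pvec]
    refine Finset.prod_congr rfl fun i _ => ?_
    split_ifs
    · exact hrk _ _ _
    · simp
  simp [h]

/-- The root elements of a pair and the rank-one maps at the factors of `U`. -/
lemma mem_pair_PU {U : Finset (Fin t)} (hU : AllRk E G U) {z : Fin t → Fin m → F}
    (hz : ∀ i, z i ≠ 0) {x y : Fin m → F} (hxy : E.Orth x y) (c : F) :
    Mem G (c • Matrix.toLin'
      (pureMat (Fin.cons (Sd E x y) fun i => if i ∈ U then rk E (z i) (z i) else 1))) := by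
  obtain ⟨N', hN⟩ := (hU z z hz hz).smul c
  have hm := hN x y hxy
  have e : N' = c • Matrix.toLin' (PU U fun i => rk E (z i) (z i)) := by
    refine LinearMap.ext fun s => sub_eq_zero.1 ((E.forms t).b_nd _ fun r => ?_)
    show E.bT t (_ - _) r = 0
    rw [map_sub, LinearMap.sub_apply, sub_eq_zero,
      show E.bT t (N' s) r = E.bT t r (N' s) from (E.forms t).b_symm _ _,
      show E.bT t r (N' s) = E.bT t ((c • Matrix.toLin' (PU U fun i => rk E (z i) (z i))) r) s from
        (adjoint_of_mem (grp_toS hB hI) hxy hm r s).symm,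
      bT_PU, show E.bT t r ((c • Matrix.toLin' (PU U fun i => rk E (z i) (z i))) s) =
        E.bT t ((c • Matrix.toLin' (PU U fun i => rk E (z i) (z i))) s) r from
        (E.forms t).b_symm _ _]
  rw [e, mem_sl] at hm
  rwa [PU, sl_dq] at hm

/-- A further factor. -/
lemma allRk_step (halt : ∀ σ : Equiv.Perm (Fin (t + 1)), Equiv.Perm.sign σ = 1 → perm F m σ ∈ G)
    {U : Finset (Fin t)} (hU : AllRk E G U) {i j : Fin t} (hi : i ∈ U) (hj : j ∉ U) :
    AllRk E G (insert j U) := by
  classical
  have hij : j ≠ i := fun h => hj (h ▸ hi)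
  set V := insert j (U.erase i) with hV
  suffices hT : AllRk E G V by
    have : insert j U = U ∪ V := by
      ext l; simp [hV]; tauto
    rw [this]
    exact hU.union hB hI hT
  -- rotate the factors
  set ρ := Equiv.swap (0 : Fin (t + 1)) j.succ * Equiv.swap 0 i.succ with hρ
  have hρs : Equiv.Perm.sign ρ.symm = 1 := by
    rw [Equiv.Perm.sign_symm, hρ, map_mul, Equiv.Perm.sign_swap (Fin.succ_ne_zero j).symm,
      Equiv.Perm.sign_swap (Fin.succ_ne_zero i).symm]
    decide
  have hY : ∀ (z : Fin t → Fin m → F), (∀ l, z l ≠ 0) → ∀ x y, E.Orth x y →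
      PS E G (PU V fun l => if l = j then Sd E x y else rk E (z l) (z l)) := by
    intro z hz x y hxy
    have h1 := mem_pair_PU hB hI hU hz hxy 1
    rw [one_smul] at h1
    set A : Fin (t + 1) → Matrix (Fin m) (Fin m) F :=
      Fin.cons (Sd E x y) (fun l => if l ∈ U then rk E (z l) (z l) else 1) with hA
    have h2 := h1.conj (halt ρ.symm hρs)
    have h3 : Mem G (Matrix.toLin' (pureMat fun l => A (ρ l))) := h2.congr fun X => by
      simp only [LinearMap.comp_apply, LinearEquiv.coe_coe, Matrix.toLin'_apply, perm_pureMat,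
        self_inv_apply, Equiv.symm_symm]
    have e : (fun l => A (ρ l)) = Fin.cons (rk E (z i) (z i))
        (fun l => if l ∈ V then (if l = j then Sd E x y else rk E (z l) (z l)) else 1) := by
      funext l
      refine Fin.cases ?_ (fun l => ?_) l
      · rw [hρ, Equiv.Perm.mul_apply, Equiv.swap_apply_left,
          Equiv.swap_apply_of_ne_of_ne (Fin.succ_ne_zero i) ((Fin.succ_injective t).ne hij.symm)]
        simp [hA, hi]
      · rcases eq_or_ne l i with rfl | hli
        · rw [hρ, Equiv.Perm.mul_apply, Equiv.swap_apply_right, Equiv.swap_apply_left]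
          simp [hA, hj, hV, hij.symm]
        rw [hρ, Equiv.Perm.mul_apply, Equiv.swap_apply_of_ne_of_ne (Fin.succ_ne_zero l)
          ((Fin.succ_injective t).ne hli)]
        rcases eq_or_ne l j with rfl | hlj
        · rw [Equiv.swap_apply_right]
          simp [hA, hV]
        · rw [Equiv.swap_apply_of_ne_of_ne (Fin.succ_ne_zero l) ((Fin.succ_injective t).ne hlj)]
          simp [hA, hV, hlj, hli]
    rw [e, ← one_smul F (Matrix.toLin' _), rk, ← sl_root, ← mem_sl] at h3
    have := nset_of_root (grp_toS hB hI) (hz i) (Y := (1 : F) • Matrix.toLin' _) h3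
    rwa [one_smul] at this
  intro a b ha hb
  choose p hp hpe using fun l => exists_rk_four (E := E) (ha l) (hb l)
  choose u v h1 h2 h3 using fun l => exists_two (E := E) (ha l) (hb l)
  let w : Fin 4 → Fin t → Fin m → F := ![a, u, v, b]
  have hu : ∀ l, u l ≠ 0 := fun l h0 => by simpa [h0] using h1 l
  have hv : ∀ l, v l ≠ 0 := fun l h0 => by simpa [h0] using h2 l
  have hw : ∀ k l, w k l ≠ 0 := fun k l => by fin_cases k <;> simp [w, ha, hb, hu, hv]
  have hk := fun k => hY (w k) (hw k) (p j k).1 (p j k).2 (hp j k)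
  have h := PS_mul hB hI (PS_mul hB hI (hk 0) (hk 1)) (PS_mul hB hI (hk 2) (hk 3))
  simp only [PU_mul] at h
  convert h using 1
  refine PU_congr fun l _ => ?_
  split_ifs with hl
  · rw [hl, hpe]
  · simp [w, rk_mul, h1, h2, h3]

/-- The root elements of a pair and rank-one maps at all other factors. -/
theorem mem_pair_all
    (halt : ∀ σ : Equiv.Perm (Fin (t + 1)), Equiv.Perm.sign σ = 1 → perm F m σ ∈ G)
    (hpar : ¬ NoPar (E.forms t) (G.map (toS F m t).toMonoidHom)) {z : Fin t → Fin m → F}
    (hz : ∀ i, z i ≠ 0) {x y : Fin m → F} (hxy : E.Orth x y) (c : F) :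
    Mem G (c • Matrix.toLin' (pureMat (Fin.cons (Sd E x y) fun i => rk E (z i) (z i)))) := by
  classical
  have hG := grp_toS hB hI
  simp only [NoPar] at hpar
  push Not at hpar
  obtain ⟨x₀, y₀, N, N', ho, hm, hne⟩ := hpar
  obtain ⟨d, Xs, hd, hXs, ⟨i₀, z₀, w₀, ho₀, hi₀⟩, hP⟩ := exists_pure_pairs (E := E) t
    (P := Nset (E.forms t) (G.map (toS F m t).toMonoidHom)) (fun _ _ h h' => h.add h')
    (fun j u M h => by
      have h1 := PS_conj hB hI (M := LinearMap.toMatrix' M) (by rwa [PS, Matrix.toLin'_toMatrix']) j u 1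
      rw [PS, one_smul, Matrix.toLin'_mul, Matrix.toLin'_mul, Matrix.toLin'_toMatrix'] at h1
      have e : Matrix.toLin' (pos j (1 + rk E u u)) = tv E j u := by
        show Matrix.toLin' (posL j _) = _
        rw [map_add, map_add]
        congr 1
        show Matrix.toLin' (pureMat (Function.update (fun _ => 1) j 1)) = _
        rw [Function.update_eq_self (f := fun _ => (1 : Matrix (Fin m) (Fin m) F)), pureMat_one,
          Matrix.toLin'_one]
      rw [e, LinearMap.comp_assoc] at h1
      exact h1)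
    (nset_of_mem hG ho hm) hne
  set U₀ : Finset (Fin t) := Finset.univ.filter fun i => ∃ z w, E.Orth z w ∧ Xs i = Sd E z w
  have hsel : ∀ i, ∃ p : (Fin m → F) × (Fin m → F), i ∈ U₀ → E.Orth p.1 p.2 ∧ Xs i = Sd E p.1 p.2 :=
    fun i => by
      by_cases h : ∃ z w, E.Orth z w ∧ Xs i = Sd E z w
      · obtain ⟨z, w, h⟩ := h; exact ⟨(z, w), fun _ => h⟩
      · exact ⟨(0, 0), fun h' => absurd (Finset.mem_filter.1 h').2 h⟩
  choose p hp using hsel
  have hS : PS E G (PU U₀ fun i => Sd E (p i).1 (p i).2) := by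
    have h := hP.smul d⁻¹
    rw [smul_smul, inv_mul_cancel₀ hd, one_smul] at h
    rw [PS, PU, show (fun i => if i ∈ U₀ then Sd E (p i).1 (p i).2 else 1) = Xs from funext fun i => by
      split_ifs with hi
      · exact (hp i hi).2.symm
      · refine ((hXs i).resolve_right fun h => hi ?_).symm
        exact Finset.mem_filter.2 ⟨Finset.mem_univ _, h⟩]
    exact h
  have hU₀ := allRk_of_pairs hB hI (fun i hi => (hp i hi).1) hS
  have hi₀' : i₀ ∈ U₀ := Finset.mem_filter.2 ⟨Finset.mem_univ _, z₀, w₀, ho₀, hi₀⟩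
  have hall : ∀ D : Finset (Fin t), AllRk E G (U₀ ∪ D) := by
    intro D
    induction D using Finset.induction with
    | empty => simpa using hU₀
    | insert j D _ ih =>
      by_cases hj : j ∈ U₀ ∪ D
      · rwa [show U₀ ∪ insert j D = U₀ ∪ D by rw [Finset.union_insert, Finset.insert_eq_self.2 hj]]
      · rw [Finset.union_insert]
        exact allRk_step hB hI halt ih (Finset.mem_union_left _ hi₀') hj
  have := mem_pair_PU hB hI (hall Finset.univ) hz hxy c
  simpa using this

end Cfsg.Agent.MaxSub.TensorPowSp.Even
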