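import Cfsg.Agent.MaxSub.TensorPowSp.Even.Fix
import Cfsg.Agent.MaxSub.TensorPow.TwoSquareZero

/-!
Without non-scalar parameters the group lies in every subgroup `N` containing the elements mapping a
line onto a line and closed under the criterion `hB2`.
-/

set_option autoImplicit false
set_option linter.unusedSectionVars false
set_option linter.unusedSimpArgs false
set_option maxHeartbeats 1000000

namespace Cfsg.Agent.MaxSub.TensorPowSp.Even

open Module Matrix Cfsg.Agent.MaxSub.TensorPow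
open Cfsg.Agent.MaxSub.ExtField (Mem inv_apply_self self_inv_apply)

universe u w

variable {F : Type u} [Field F] [Finite F] {m : ℕ} {W : Type w} [AddCommGroup W] [Module F W]
  [FiniteDimensional F W] [Nontrivial W]

/-- The data of the conjugate `a` of a root element by `x ∉ N`. -/
structure Sel (P : Forms F m W) (G N : Subgroup ((Fin m → W) ≃ₗ[F] (Fin m → W)))
    (x a : (Fin m → W) ≃ₗ[F] (Fin m → W)) (v₀ : Fin m → F) (c₀ : F) : Prop where
  hG : Grp P G
  hP : NoPar P G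
  hB1 : ∀ g ∈ G, ∀ v v' : Fin m → F, v ≠ 0 → (∀ w, g (ins v w) ∈ line W v') → g ∈ N
  hx : x ∈ G
  hxN : x ∉ N
  hv₀ : v₀ ≠ 0
  hc₀ : c₀ ≠ 0
  haG : a ∈ G
  ha : ∀ X, a X = X + x (c₀ • ins v₀ (evs P v₀ (x⁻¹ X)))

/-- The image of the line `v₀ ⊗ W`. -/
abbrev imD (x : (Fin m → W) ≃ₗ[F] (Fin m → W)) (v₀ : Fin m → F) : Submodule F (Fin m → W) :=
  (line W v₀).map x.toLinearMap

/-- `u` is admissible for `D`, relative to `v'`. -/
structure Adm (P : Forms F m W) (D : Submodule F (Fin m → W)) (u v' : Fin m → F) : Prop where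
  hu0 : u ≠ 0
  hv'0 : v' ≠ 0
  hsel : ∀ X ∈ D, evs P u X = 0 → X ∈ line W v'

/-- `D` lies in the sum of the line of `u` and a second line. -/
def Plane (P : Forms F m W) (D : Submodule F (Fin m → W)) (u : Fin m → F) : Prop :=
  ∃ r, P.g r u ≠ 0 ∧ D ≤ line W u ⊔ line W r

variable {P : Forms F m W} {G N : Subgroup ((Fin m → W) ≃ₗ[F] (Fin m → W))}
  {x a z : (Fin m → W) ≃ₗ[F] (Fin m → W)} {v₀ u v' : Fin m → F} {c₀ : F}

lemma finrank_line {v : Fin m → F} (hv : v ≠ 0) : finrank F (line W v) = finrank F W :=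
  LinearMap.finrank_range_of_inj (ins_injective hv)

/-- An element commuting with a root element stabilises its line. -/
lemma line_of_root {t g : (Fin m → W) ≃ₗ[F] (Fin m → W)} {c : F} (hc : c ≠ 0)
    {y : Fin m → F} (hy : P.g y u = 1) (ht : ∀ X, t X = X + c • ins u (evs P u X))
    (h : g * t = t * g) (w : W) : g (ins u w) ∈ line W u := by
  refine ⟨evs P u (g (ins y w)), smul_right_injective (Fin m → W) hc ?_⟩
  have h1 := congrFun (congrArg DFunLike.coe h) (ins y w)
  simp only [LinearEquiv.mul_apply, ht, map_add, map_smul, P.evs_ins, hy, one_smul,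
    add_right_inj] at h1
  exact h1.symm

variable (S : Sel P G N x a v₀ c₀)
include S

lemma Sel.finrank_imD : finrank F (imD x v₀) = finrank F W := by
  rw [LinearEquiv.finrank_map_eq, finrank_line S.hv₀]

/-- `D` is not the line of any vector. -/
lemma Sel.not_le {s : Fin m → F} (h : imD x v₀ ≤ line W s) : False :=
  S.hxN (S.hB1 x S.hx v₀ s S.hv₀ fun w => h ⟨_, ⟨w, rfl⟩, rfl⟩)

lemma Sel.a_mem (X : Fin m → W) : a X - X ∈ imD x v₀ := by
  rw [S.ha, add_sub_cancel_left, map_smul]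
  exact Submodule.smul_mem _ _ ⟨_, ⟨_, rfl⟩, rfl⟩

lemma Sel.a_fix {X : Fin m → W} (hX : X ∈ imD x v₀) : a X = X := by
  obtain ⟨_, ⟨w, rfl⟩, rfl⟩ := hX
  rw [S.ha, LinearEquiv.coe_coe, inv_apply_self, P.evs_ins, P.alt.alt, zero_smul, map_zero,
    smul_zero, map_zero, add_zero]

lemma Sel.a_ne_one : a ≠ 1 := by
  obtain ⟨y, hy⟩ := P.exists_dual_vec S.hv₀
  obtain ⟨e, he⟩ := exists_ne (0 : W)
  intro h
  have h1 := S.ha (x (ins y e))
  rw [h, inv_apply_self, P.evs_ins, hy, one_smul, eq_comm] at h1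
  have h2 : x (c₀ • ins v₀ e) = 0 := add_eq_left.1 h1
  rw [map_eq_zero_iff _ x.injective, smul_eq_zero] at h2
  exact he (ins_injective S.hv₀ ((h2.resolve_left S.hc₀).trans (map_zero _).symm))

omit S in
lemma exists_perp_notin (S' : Submodule F (Fin m → F)) (u : Fin m → F)
    (h : finrank F S' + 1 < m) : ∃ s, P.g s u = 0 ∧ s ∉ S' := by
  obtain ⟨s, hs, hsu⟩ := P.exists_perp_avoid ![u] S' (by omega)
  exact ⟨s, hsu 0, hs⟩

/-- An element of the pair fixing the line of `u` is a root element, or gives a plane. -/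
lemma Sel.zcase (A : Adm P (imD x v₀) u v') (hz : z ∈ G)
    (hM : ∀ X, z X - X ∈ line W u ⊔ imD x v₀) (hline : ∀ w, z (ins u w) ∈ line W u) :
    (∃ c : F, ∀ X, z X = X + c • ins u (evs P u X)) ∨ Plane P (imD x v₀) u := by
  classical
  obtain ⟨B, k, hBk⟩ := (Carry.refl S.hG S.hP hz).isT_of_line A.hu0 hline
  obtain ⟨e, he⟩ := exists_ne (0 : W)
  have hne : ∀ w : W, w ≠ 0 → k w ≠ 0 := fun w hw h0 =>
    hw (k.injective (h0.trans (map_zero k).symm))
  obtain ⟨μ, hμ⟩ : ∃ μ : F, μ • u = B *ᵥ u := Submodule.mem_span_singleton.1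
    (mem_span_of_perp fun ψ hψ => by
      have h1 := line_le_ker hψ (hline e)
      rw [hBk, ev_ins] at h1
      exact (smul_eq_zero.1 h1).resolve_right (hne e he))
  have hμ0 : μ ≠ 0 := fun h0 => by
    have h1 : z (ins u e) = 0 := by rw [hBk, ← hμ, h0, zero_smul, ins_zero]
    rw [map_eq_zero_iff _ z.injective] at h1
    exact he (ins_injective A.hu0 (h1.trans (map_zero _).symm))
  have hker : ∀ X, evs P u X = 0 → evs P u (z X) = 0 := fun X hX => by
    refine P.b_nd _ fun w => ?_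
    have h1 := S.hG.iso z hz X (ins u (k.symm w))
    rw [hBk, ← hμ, LinearEquiv.apply_symm_apply, ins_smul, ← map_smul, P.bV_ins_right,
      P.bV_ins_right, hX, map_zero (P.b), LinearMap.zero_apply, map_smul, smul_eq_mul,
      mul_eq_zero] at h1
    exact h1.resolve_left hμ0
  have hMk : ∀ Y ∈ line W u ⊔ imD x v₀, evs P u Y = 0 → Y ∈ line W u ⊔ line W v' := fun Y hY hY0 => by
    obtain ⟨p, ⟨p', rfl⟩, d, hd, rfl⟩ := Submodule.mem_sup.1 hY
    refine add_mem (Submodule.mem_sup_left ⟨p', rfl⟩) (Submodule.mem_sup_right (A.hsel d hd ?_))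
    rwa [map_add, P.evs_ins, P.alt.alt, zero_smul, zero_add] at hY0
  have hkill : ∀ ψ : Fin m → F, ψ ⬝ᵥ u = 0 → ψ ⬝ᵥ v' = 0 →
      ∀ Y ∈ line W u ⊔ line W v', ev ψ Y = 0 := fun ψ h1 h2 Y hY => by
    obtain ⟨p, hp, d, hd, rfl⟩ := Submodule.mem_sup.1 hY
    rw [map_add, line_le_ker h1 hp, line_le_ker h2 hd, add_zero]
  obtain ⟨s, hsu, hs⟩ := exists_perp_notin (P := P) (Submodule.span F {u, v'}) u
    (by have := P.finrank_span_pair u v'; have := P.dim; omega)
  obtain ⟨σ, hσ, hσS⟩ := exists_perp hs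
  have hσu : σ ⬝ᵥ u = 0 := hσS u (Submodule.subset_span (by simp))
  have hσv : σ ⬝ᵥ v' = 0 := hσS v' (Submodule.subset_span (by simp))
  set c := σ ⬝ᵥ (B *ᵥ s)
  have hc : ∀ w, c • k w = w := fun w => by
    have h1 := hkill σ hσu hσv _ (hMk _ (hM (ins s w)) (by
      rw [map_sub, hker _ (by rw [P.evs_ins, hsu, zero_smul]), P.evs_ins, hsu, zero_smul, sub_zero]))
    rwa [map_sub, hBk, ev_ins, ev_ins, hσ, one_smul, sub_eq_zero] at h1
  have hc0 : c ≠ 0 := fun h0 => he (by rw [← hc e, h0, zero_smul])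
  set T : (Fin m → F) →ₗ[F] (Fin m → F) := c⁻¹ • Matrix.toLin' B - LinearMap.id with hT
  have hzform : ∀ s' w, z (ins s' w) = ins (s' + T s') w := fun s' w => by
    rw [hBk, hT, show k w = c⁻¹ • w by rw [eq_inv_smul_iff₀ hc0, hc], map_smul, ← ins_smul]
    simp
  have hTM : ∀ s' w, ins (T s') w ∈ line W u ⊔ imD x v₀ := fun s' w => by
    have h1 := hM (ins s' w)
    rwa [hzform, ins_add, add_sub_cancel_left] at h1
  have hTk : ∀ s', P.g (T s') u = 0 → T s' ∈ F ∙ u := fun s' h0 => by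
    have hmem : T s' ∈ Submodule.span F ({u, v'} : Set (Fin m → F)) := by
      by_contra hn
      obtain ⟨ψ, hψ, hψS⟩ := exists_perp hn
      have h1 := hkill ψ (hψS u (Submodule.subset_span (by simp)))
        (hψS v' (Submodule.subset_span (by simp))) _ (hMk _ (hTM s' e) (by
          rw [P.evs_ins, h0, zero_smul]))
      rw [ev_ins, hψ, one_smul] at h1
      exact he h1
    obtain ⟨α, β, hab⟩ := Submodule.mem_span_pair.1 hmem
    by_contra hn
    have hβ : β ≠ 0 := fun hb => hn (Submodule.mem_span_singleton.2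
      ⟨α, by rw [← hab, hb, zero_smul, add_zero]⟩)
    have hv'u : v' ∉ F ∙ u := fun hv => hn (by
      rw [← hab]
      exact add_mem (Submodule.smul_mem _ _ (Submodule.mem_span_singleton_self u))
        (Submodule.smul_mem _ _ hv))
    obtain ⟨ψ, hψ, hψu⟩ := exists_perp hv'u
    have hperp : P.g v' u = 0 := by
      rw [← hab, map_add, LinearMap.add_apply, map_smul, map_smul, LinearMap.smul_apply,
        LinearMap.smul_apply, P.alt.alt, smul_zero, zero_add, smul_eq_mul, mul_eq_zero] at h0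
      exact h0.resolve_left hβ
    have hle : line W v' ≤ imD x v₀ := by
      rintro _ ⟨w, rfl⟩
      have h1 : ins v' w ∈ line W u ⊔ imD x v₀ := by
        have h2 := hTM s' (β⁻¹ • w)
        rw [← hab, ins_add, ins_smul, ins_smul, ← map_smul (ins v') β, smul_inv_smul₀ hβ] at h2
        have h4 : α • ins u (β⁻¹ • w) ∈ line W u ⊔ imD x v₀ :=
          Submodule.mem_sup_left ((line W u).smul_mem α ⟨β⁻¹ • w, rfl⟩)
        have h3 := sub_mem h2 h4
        rwa [add_sub_cancel_left] at h3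
      obtain ⟨p, ⟨p', rfl⟩, d, hd, hpd⟩ := Submodule.mem_sup.1 h1
      obtain ⟨b, rfl⟩ := A.hsel d hd (by
        have h4 := congrArg (evs P u) hpd
        rwa [map_add, P.evs_ins, P.alt.alt, zero_smul, zero_add, P.evs_ins, hperp, zero_smul] at h4)
      have h5 := congrArg (ev ψ) hpd
      rw [map_add, ev_ins, ev_ins, ev_ins, hψu u (Submodule.mem_span_singleton_self u), hψ,
        zero_smul, zero_add, one_smul, one_smul] at h5
      rwa [← h5]
    exact S.not_le (Submodule.eq_of_le_of_finrank_le hle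
      (by rw [S.finrank_imD, finrank_line A.hv'0])).ge
  by_cases hall : ∀ s', P.g (T s') u = 0
  · left
    obtain ⟨y, hy⟩ := P.exists_dual_vec A.hu0
    have huy : P.g u y = 1 := by rw [P.g_symm, hy]
    have hφ : ∀ s', ∃ f : F, T s' = f • u := fun s' => by
      obtain ⟨f, hf⟩ := Submodule.mem_span_singleton.1 (hTk s' (hall s'))
      exact ⟨f, hf.symm⟩
    choose f hf using hφ
    obtain ⟨e', he'⟩ : ∃ e', P.b e e' ≠ 0 := by
      by_contra hcon; push Not at hcon; exact he (P.b_nd e hcon)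
    have hiso' : ∀ s' t', P.g (s' + T s') (t' + T t') = P.g s' t' := fun s' t' => by
      refine mul_right_cancel₀ he' ?_
      rw [← P.bV_ins_ins, ← P.bV_ins_ins, ← hzform, ← hzform, S.hG.iso z hz]
    refine ⟨f y, fun X => ?_⟩
    have h2 : ∀ s', f s' = f y * P.g s' u := fun s' => by
      have h1 := hiso' s' y
      simp only [hf, map_add, LinearMap.add_apply, map_smul, LinearMap.smul_apply, smul_eq_mul,
        P.alt.alt, huy] at h1
      linear_combination h1 - (f y * P.g s' u) * P.h2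
    show z.toLinearMap X = (LinearMap.id + f y • (ins u ∘ₗ evs P u) : _ →ₗ[F] _) X
    refine Forms.ext_ins (fun s' w => ?_) X
    rw [LinearEquiv.coe_coe, hzform, hf, h2 s']
    simp only [ins_add, ins_smul, LinearMap.add_apply, LinearMap.id_apply, LinearMap.smul_apply,
      LinearMap.comp_apply, P.evs_ins, map_smul, smul_smul]
  · right
    push Not at hall
    obtain ⟨s', hs'⟩ := hall
    set r := T s'
    have hr0 : r ≠ 0 := fun h0 => hs' (by rw [h0, map_zero, LinearMap.zero_apply])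
    have hle : line W u ⊔ line W r ≤ line W u ⊔ imD x v₀ :=
      sup_le le_sup_left (by rintro _ ⟨w, rfl⟩; exact hTM s' w)
    have hdis : line W u ⊓ line W r = ⊥ := by
      rw [eq_bot_iff]
      rintro _ ⟨⟨a', rfl⟩, ⟨b', hb'⟩⟩
      have h1 := congrArg (evs P u) hb'
      rw [P.evs_ins, P.evs_ins, P.alt.alt, zero_smul, smul_eq_zero] at h1
      rw [← hb', h1.resolve_left hs', map_zero]
      exact zero_mem _
    have e1 := Submodule.finrank_sup_add_finrank_inf_eq (line W u) (line W r)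
    have e2 := Submodule.finrank_sup_add_finrank_inf_eq (line W u) (imD x v₀)
    rw [hdis, finrank_bot, finrank_line A.hu0, finrank_line hr0] at e1
    rw [finrank_line A.hu0, S.finrank_imD] at e2
    have h3 := Submodule.finrank_mono hle
    exact ⟨r, hs', Submodule.eq_of_le_of_finrank_le hle (by omega) ▸ le_sup_right⟩

/-- A root element of the line of `u` does not commute with `a`. -/
lemma Sel.not_commute (A : Adm P (imD x v₀) u v') {c : F} (hc : c ≠ 0)
    (hzX : ∀ X, z X = X + c • ins u (evs P u X)) (h : a * z = z * a) : False := by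
  classical
  obtain ⟨y, hy⟩ := P.exists_dual_vec A.hu0
  have hT := (Carry.refl S.hG S.hP S.haG).isT_of_line A.hu0 (line_of_root hc hy hzX h)
  have hrange : finrank F (LinearMap.range (a.toLinearMap - LinearMap.id)) ≤ finrank F W := by
    refine (Submodule.finrank_mono (t := imD x v₀) ?_).trans S.finrank_imD.le
    rintro _ ⟨X, rfl⟩
    exact S.a_mem X
  rcases one_factor (by have := P.dim; omega) hT (fun X => S.a_fix (S.a_mem X)) hrange with
    ⟨B, hB⟩ | ⟨k, hk⟩
  · obtain ⟨s', hs'⟩ : ∃ s' : Fin m → F, B *ᵥ s' - s' ≠ 0 := by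
      by_contra hcon
      push Not at hcon
      refine S.a_ne_one (LinearEquiv.ext fun X => ?_)
      show a.toLinearMap X = LinearMap.id X
      exact Forms.ext_ins (fun u' w => by simp [hB, sub_eq_zero.1 (hcon u')]) X
    have hle : line W (B *ᵥ s' - s') ≤ imD x v₀ := by
      rintro _ ⟨w, rfl⟩
      have := S.a_mem (ins s' w)
      rwa [hB, ← ins_sub] at this
    exact S.not_le (Submodule.eq_of_le_of_finrank_le hle
      (by rw [S.finrank_imD, finrank_line hs'])).ge
  · obtain ⟨w, hw⟩ : ∃ w, k w - w ≠ 0 := by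
      by_contra hcon
      push Not at hcon
      refine S.a_ne_one (LinearEquiv.ext fun X => ?_)
      show a.toLinearMap X = LinearMap.id X
      exact Forms.ext_ins (fun u' w => by simp [hk, sub_eq_zero.1 (hcon w)]) X
    obtain ⟨s, hsu, hs⟩ := exists_perp_notin (P := P) (Submodule.span F {u, v'}) u
      (by have := P.finrank_span_pair u v'; have := P.dim; omega)
    obtain ⟨σ, hσ, hσS⟩ := exists_perp hs
    have h1 := S.a_mem (ins s w)
    rw [hk, ← map_sub] at h1
    obtain ⟨b, hb⟩ := A.hsel _ h1 (by rw [P.evs_ins, hsu, zero_smul])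
    have h2 := congrArg (ev σ) hb
    rw [ev_ins, ev_ins, hσ, hσS v' (Submodule.subset_span (by simp)), zero_smul, one_smul] at h2
    exact hw h2.symm

/-- Each scalar gives a plane, or an element exchanging the two root elements. -/
lemma Sel.swap (A : Adm P (imD x v₀) u v') {c : F} (hc : c ≠ 0) :
    Plane P (imD x v₀) u ∨
      ∃ t g, g ∈ G ∧ (∀ X, t X = X + c • ins u (evs P u X)) ∧
        g * t * g⁻¹ = a ∧ g * a * g⁻¹ = t ∧
        (∀ X, g X - X ∈ line W u ⊔ imD x v₀) ∧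
        (∀ X, evs P u X = 0 → a X = X → g X = X) ∧
        (∀ w, g (ins u w) ∈ imD x v₀) ∧ (∀ X ∈ imD x v₀, g X ∈ line W u) := by
  classical
  obtain ⟨t, htG, ht'⟩ := S.hG.trv u c
  have ht : ∀ X, t X = X + c • ins u (evs P u X) := fun X => by rw [ht']; rfl
  obtain ⟨y, hy⟩ := P.exists_dual_vec A.hu0
  obtain ⟨e, he⟩ := exists_ne (0 : W)
  have hHG : Subgroup.closure {t, a} ≤ G :=
    (Subgroup.closure_le G).2 (by rintro g (rfl | rfl); exacts [htG, S.haG])
  have hfixH : ∀ X, t X = X → a X = X → ∀ g ∈ Subgroup.closure {t, a}, g X = X := by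
    intro X h1 h2 g hg
    refine Subgroup.closure_induction (p := fun g _ => g X = X) ?_ ?_ ?_ ?_ hg
    · rintro g (rfl | rfl) <;> assumption
    · rfl
    · intro g h _ _ hg hh; rw [LinearEquiv.mul_apply, hh, hg]
    · intro g _ hg; exact g.injective (by rw [self_inv_apply, hg])
  have hsubH : ∀ g ∈ Subgroup.closure {t, a}, ∀ X, g X - X ∈ line W u ⊔ imD x v₀ := by
    intro g hg
    refine Subgroup.closure_induction
      (p := fun g _ => ∀ X, g X - X ∈ line W u ⊔ imD x v₀) ?_ ?_ ?_ ?_ hg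
    · rintro g (rfl | rfl) X
      · rw [ht, add_sub_cancel_left]
        exact Submodule.mem_sup_left (Submodule.smul_mem _ _ ⟨_, rfl⟩)
      · exact Submodule.mem_sup_right (S.a_mem X)
    · exact fun X => by simp
    · intro g h _ _ ihg ihh X
      rw [LinearEquiv.mul_apply, ← sub_add_sub_cancel (g (h X)) (h X) X]
      exact add_mem (ihg _) (ihh _)
    · intro g _ ih X
      have := neg_mem (ih (g⁻¹ X))
      rwa [neg_sub, self_inv_apply] at this
  have hcentral : ∀ z ∈ Subgroup.closure {t, a}, z ≠ 1 → z * t = t * z → z * a = a * z →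
      Plane P (imD x v₀) u := by
    intro z hz hz1 hzt hza
    rcases S.zcase A (hHG hz) (hsubH z hz) (line_of_root hc hy ht hzt) with ⟨c', hzX⟩ | hp
    · rcases eq_or_ne c' 0 with rfl | hc'
      · exact absurd (LinearEquiv.ext fun X => by rw [hzX, zero_smul, add_zero]; rfl) hz1
      · exact (S.not_commute A hc' hzX hza.symm).elim
    · exact hp
  have htt : t * t = 1 := LinearEquiv.ext fun X => by
    rw [LinearEquiv.mul_apply, ht, ht, map_add, map_smul, P.evs_ins, P.alt.alt, zero_smul,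
      smul_zero, add_zero, add_assoc, P.add_self, add_zero]
    rfl
  have haa : a * a = 1 := LinearEquiv.ext fun X => by
    have h1 : a X = (a X - X) + X := (sub_add_cancel _ _).symm
    rw [LinearEquiv.mul_apply, h1, map_add, S.a_fix (S.a_mem X)]
    conv_lhs => arg 2; rw [h1]
    rw [← add_assoc, P.add_self, zero_add]
    rfl
  haveI : Finite (Fin m → W) := Module.finite_of_finite F
  haveI : Finite ((Fin m → W) ≃ₗ[F] (Fin m → W)) :=
    Finite.of_injective (fun e => (e : (Fin m → W) → _)) DFunLike.coe_injective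
  rcases TwoSq.dihedral htt haa with ⟨z, hz, hz1, hzt, hza⟩ | ⟨g, hg, -, hgt, hga⟩
  · exact Or.inl (hcentral z hz hz1 hzt hza)
  refine Or.inr ⟨t, g, hHG hg, ht, hgt, hga, hsubH g hg,
    fun X h1 h2 => hfixH X (by rw [ht, h1, map_zero, smul_zero, add_zero]) h2 g hg,
    fun w => ?_, fun X hX => ?_⟩
  · have h := congrFun (congrArg DFunLike.coe hgt) (g (ins y w))
    rw [LinearEquiv.mul_apply, LinearEquiv.mul_apply, inv_apply_self, ht, P.evs_ins, hy, one_smul,
      map_add, map_smul] at h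
    have h1 := S.a_mem (g (ins y w))
    rw [← h, add_sub_cancel_left] at h1
    exact ((imD x v₀).smul_mem_iff hc).1 h1
  · obtain ⟨_, ⟨w, rfl⟩, rfl⟩ := hX
    obtain ⟨y₀, hy₀⟩ := P.exists_dual_vec S.hv₀
    have h := congrFun (congrArg DFunLike.coe hga) (g (x (ins y₀ w)))
    rw [LinearEquiv.mul_apply, LinearEquiv.mul_apply, inv_apply_self, S.ha, inv_apply_self,
      P.evs_ins, hy₀, one_smul, map_smul, map_add, map_smul, ht, add_right_inj] at h
    refine ((line W u).smul_mem_iff S.hc₀).1 ?_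
    rw [LinearEquiv.coe_coe, h]
    exact Submodule.smul_mem _ _ ⟨_, rfl⟩

omit S in
/-- All images of lines of elements outside `N` avoid the kernels of the contractions. -/
def Full (P : Forms F m W) (G N : Subgroup ((Fin m → W) ≃ₗ[F] (Fin m → W))) : Prop :=
  ∀ g ∈ G, g ∉ N → ∀ v u : Fin m → F, v ≠ 0 → u ≠ 0 → ∀ w, evs P u (g (ins v w)) = 0 → w = 0

/-- The case of a line image meeting a line. -/
lemma Sel.false_selected
    (hsel : ∀ u, u ≠ 0 → P.g v₀ u = 0 → ∀ X ∈ imD x v₀, evs P u X = 0 → X ∈ line W v₀)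
    {w : W} (hw : w ≠ 0) (hD : ins v₀ w ∈ imD x v₀) : False := by
  obtain ⟨u, huv, hu⟩ := exists_perp_notin (P := P) (F ∙ v₀) v₀
    (by rw [finrank_span_singleton S.hv₀]; have := P.dim; omega)
  have hvu : P.g v₀ u = 0 := by rw [P.g_symm, huv]
  have hu0 : u ≠ 0 := fun h0 => hu (h0 ▸ zero_mem _)
  have A : Adm P (imD x v₀) u v₀ := ⟨hu0, S.hv₀, hsel u hu0 hvu⟩
  have hnot : ∀ b : W, ins u b ≠ ins v₀ w := fun b hb => by
    obtain ⟨ψ, hψ, hψu⟩ := exists_perp (show v₀ ∉ F ∙ u from fun h => hu (by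
      obtain ⟨α, hα⟩ := Submodule.mem_span_singleton.1 h
      have hα0 : α ≠ 0 := fun h0 => S.hv₀ (by rw [← hα, h0, zero_smul])
      exact Submodule.mem_span_singleton.2 ⟨α⁻¹, by rw [← hα, inv_smul_smul₀ hα0]⟩))
    have h1 := congrArg (ev ψ) hb
    rw [ev_ins, ev_ins, hψ, hψu u (Submodule.mem_span_singleton_self u), zero_smul, one_smul] at h1
    exact hw h1.symm
  rcases S.swap A one_ne_zero with ⟨r, hr, hDle⟩ | ⟨t, g, -, -, -, -, -, hfix, -, hgD⟩
  · obtain ⟨_, ⟨p, rfl⟩, _, ⟨b, rfl⟩, hpb⟩ := Submodule.mem_sup.1 (hDle hD)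
    have h1 := congrArg (evs P u) hpb
    rw [map_add, P.evs_ins, P.evs_ins, P.evs_ins, P.alt.alt, hvu, zero_smul, zero_smul, zero_add,
      smul_eq_zero] at h1
    rw [h1.resolve_left hr, map_zero, add_zero] at hpb
    exact hnot p hpb
  · obtain ⟨b, hb⟩ := hgD _ hD
    rw [hfix _ (by rw [P.evs_ins, hvu, zero_smul]) (S.a_fix hD)] at hb
    exact hnot b hb

omit S in
/-- Two square roots of the same quadratic with related products. -/
lemma end_contra {R : Type*} [Ring R] [Nontrivial R] (h2 : ∀ z : R, z + z = 0) {p q : R}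
    (hp : p * p + p + 1 = 0) (hq : q * q + q + 1 = 0)
    (hpq : (p + q) * (p + q) + (p + q) + 1 = 0)
    (hr : (p * (q + 1)) * (p * (q + 1)) + p * (q + 1) + 1 = 0) : False := by
  have hn : ∀ z : R, -z = z := fun z => by rw [neg_eq_iff_add_eq_zero, h2]
  have hp' : p * p = p + 1 := by
    rw [← hn (p + 1), eq_neg_iff_add_eq_zero, ← add_assoc, hp]
  have hq' : q * q = q + 1 := by
    rw [← hn (q + 1), eq_neg_iff_add_eq_zero, ← add_assoc, hq]
  have hqp : q * p = p * q + 1 := by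
    rw [← hn (p * q + 1), eq_neg_iff_add_eq_zero]
    have e : (p + q) * (p + q) + (p + q) + 1 =
        q * p + (p * q + 1) + ((p + p) + (q + q) + (1 + 1)) := by
      rw [mul_add, add_mul, add_mul, hp', hq']; abel
    simp only [e, h2, add_zero] at hpq
    exact hpq
  have e1 : p * q * p = p * q + q + p := by
    rw [mul_assoc, hqp, mul_add, mul_one, ← mul_assoc, hp', add_mul, one_mul]
  have e2 : p * p * q = p * q + q := by rw [hp', add_mul, one_mul]
  have e3 : p * q * (p * q) = p + q + 1 := by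
    rw [← mul_assoc, e1, add_mul, add_mul, mul_assoc, hq', mul_add, mul_one,
      show p * q + p + (q + 1) + p * q = p + q + 1 + (p * q + p * q) by abel, h2, add_zero]
  have e : (p * (q + 1)) * (p * (q + 1)) + p * (q + 1) + 1 =
      p * q + q + 1 + ((p + p) + (p + p) + (q + q) + (p * q + p * q) + (1 + 1)) := by
    rw [show p * (q + 1) = p * q + p by rw [mul_add, mul_one], add_mul, mul_add, mul_add, e3, e1,
      ← mul_assoc, e2, hp']
    abel
  simp only [e, h2, add_zero] at hr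
  have h3 : p * q + q = 1 := by
    rw [← hn 1, eq_neg_iff_add_eq_zero, hr]
  have h4 : p = q := by
    have h5 := congrArg (· * (q + 1)) h3
    simp only [add_mul, one_mul] at h5
    have h6 : q * (q + 1) = 1 := by
      rw [mul_add, mul_one, hq', add_comm q 1, add_assoc, h2, add_zero]
    rw [mul_assoc, h6, mul_one] at h5
    exact add_right_cancel h5
  rw [h4, h2, mul_zero, add_zero, zero_add] at hpq
  exact one_ne_zero hpq

/-- The case of no line image meeting a kernel. -/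
lemma Sel.false_full (hfull : Full P G N) : False := by
  classical
  obtain ⟨e, he⟩ := exists_ne (0 : W)
  have hinj : ∀ u, u ≠ 0 → ∀ w, evs P u (x (ins v₀ w)) = 0 → w = 0 :=
    fun u hu0 w hw => hfull x S.hx S.hxN v₀ u S.hv₀ hu0 w hw
  have hadm : ∀ u, u ≠ 0 → Adm P (imD x v₀) u u := fun u hu0 => ⟨hu0, hu0, fun X hX h0 => by
    obtain ⟨_, ⟨w, rfl⟩, rfl⟩ := hX
    rw [hinj u hu0 w h0, map_zero, map_zero]
    exact zero_mem _⟩
  have hplane : ∀ u, ¬ Plane P (imD x v₀) u := by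
    rintro u ⟨r, -, hD⟩
    obtain ⟨y, hy, hperp⟩ := P.exists_perp_avoid ![u, r] ⊥
      (by rw [finrank_bot]; have := P.dim; omega)
    obtain ⟨_, ⟨p, rfl⟩, _, ⟨d, rfl⟩, hpd⟩ := Submodule.mem_sup.1 (hD ⟨ins v₀ e, ⟨e, rfl⟩, rfl⟩)
    refine he (hinj y (fun h0 => hy (h0 ▸ zero_mem _)) e ?_)
    rw [← LinearEquiv.coe_coe, ← hpd, map_add, P.evs_ins, P.evs_ins, P.g_symm u y,
      P.g_symm r y, show P.g y u = 0 from hperp 0, show P.g y r = 0 from hperp 1, zero_smul,
      zero_smul, add_zero]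
  have hswap : ∀ u, u ≠ 0 → ∀ c : F, c ≠ 0 → ∃ t g, g ∈ G ∧
      (∀ X, t X = X + c • ins u (evs P u X)) ∧ g * t * g⁻¹ = a ∧ g * a * g⁻¹ = t ∧
      (∀ X, g X - X ∈ line W u ⊔ imD x v₀) ∧
      (∀ w, g (ins u w) ∈ imD x v₀) ∧ (∀ X ∈ imD x v₀, g X ∈ line W u) := by
    intro u hu0 c hc
    rcases S.swap (hadm u hu0) hc with hp | ⟨t, g, h1, h2, h3, h4, h5, -, h7, h8⟩
    · exact (hplane u hp).elim
    · exact ⟨t, g, h1, h2, h3, h4, h5, h7, h8⟩
  by_cases hbig : ∃ l : F, l ≠ 0 ∧ l ≠ 1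
  · obtain ⟨l, hl0, hl1⟩ := hbig
    obtain ⟨u, hu, -⟩ := P.exists_perp_avoid (k := 0) ![] ⊥
      (by rw [finrank_bot]; have := P.dim; omega)
    have hu0 : u ≠ 0 := fun h0 => hu (h0 ▸ zero_mem _)
    obtain ⟨t, g, hgG, ht, hgt, hga, hgM, -, hgD⟩ := hswap u hu0 1 one_ne_zero
    obtain ⟨t', g', hg'G, ht', hgt', hga', hgM', hgu', -⟩ := hswap u hu0 l hl0
    rcases S.zcase (hadm u hu0) (G.mul_mem hgG hg'G) (fun X => by
        rw [LinearEquiv.mul_apply, ← sub_add_sub_cancel (g (g' X)) (g' X) X]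
        exact add_mem (hgM _) (hgM' _))
      (fun w => by rw [LinearEquiv.mul_apply]; exact hgD _ (hgu' w)) with ⟨d, hd⟩ | hp
    · have h1 : g * g' * t' = t' * (g * g') := LinearEquiv.ext fun X => by
        rw [LinearEquiv.mul_apply (g * g'), LinearEquiv.mul_apply t', hd, hd, ht', ht']
        simp only [map_add, map_smul, P.evs_ins, P.alt.alt, zero_smul, smul_zero, add_zero]
        abel
      have h2 : g * g' * t' = t * (g * g') := by rw [← hga, ← hgt']; group
      have htt : t' = t := mul_right_cancel (h1.symm.trans h2)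
      obtain ⟨y, hy⟩ := P.exists_dual_vec hu0
      have h3 := ht' (ins y e)
      rw [htt, ht, P.evs_ins, hy, add_right_inj] at h3
      simp only [one_smul] at h3
      have h4 : ins u e ≠ (0 : Fin m → W) := fun h0 =>
        he (ins_injective hu0 (h0.trans (map_zero _).symm))
      exact hl1 (smul_left_injective F h4 (show (1 : F) • ins u e = l • ins u e by rw [one_smul]; exact h3)).symm
    · exact hplane u hp
  push Not at hbig
  let α : (Fin m → F) → Module.End F W := fun u => evs P u ∘ₗ x.toLinearMap ∘ₗ ins v₀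
  have hαi : ∀ u, u ≠ 0 → Function.Injective (α u) := fun u hu =>
    (injective_iff_map_eq_zero _).2 fun w hw => hinj u hu w hw
  -- the quadratic equation of an orthogonal pair
  have hquad : ∀ u v, Orth P u v → ∀ Φ : Module.End F W, Φ * α v = α u → Φ * Φ + Φ + 1 = 0 := by
    rintro u v ho Φ hΦα'
    have hu0 : u ≠ 0 := ho.1
    have hv0 : v ≠ 0 := ho.symm.1
    have hΦα : ∀ w, Φ (α v w) = α u w := fun w => LinearMap.congr_fun hΦα' w
    obtain ⟨tu, gu, hguG, htu, hgtu, hgau, hguM, -, hguD⟩ := hswap u hu0 1 one_ne_zero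
    obtain ⟨tv, gv, hgvG, htv, hgtv, -, hgvM, hgvu, -⟩ := hswap v hv0 1 one_ne_zero
    set h := gu * gv
    have hhG : h ∈ G := G.mul_mem hguG hgvG
    obtain ⟨B, k, hBk⟩ := (Carry.refl S.hG S.hP hhG).isT_of_line hv0 (v' := u)
      (fun w => hguD _ (hgvu w))
    have hne : ∀ w : W, w ≠ 0 → k w ≠ 0 := fun w hw h0 =>
      hw (k.injective (h0.trans (map_zero k).symm))
    obtain ⟨μ, hμ⟩ : ∃ μ : F, μ • u = B *ᵥ v := Submodule.mem_span_singleton.1
      (mem_span_of_perp fun ψ hψ => by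
        have h1 := line_le_ker hψ (hguD _ (hgvu e))
        rw [← LinearEquiv.mul_apply, show gu * gv = h from rfl, hBk, ev_ins] at h1
        exact (smul_eq_zero.1 h1).resolve_right (hne e he))
    have hμ1 : μ = 1 := hbig μ fun h0 => by
      have h1 : h (ins v e) = 0 := by rw [hBk, ← hμ, h0, zero_smul, ins_zero]
      rw [map_eq_zero_iff _ h.injective] at h1
      exact he (ins_injective hv0 (h1.trans (map_zero _).symm))
    rw [hμ1, one_smul] at hμ
    have hBu : ∀ s, P.g (B *ᵥ s) u = P.g s v := fun s => by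
      have hcm : h * tv = tu * h := by
        show gu * gv * tv = tu * (gu * gv)
        rw [← hgau, ← hgtv]; group
      have h1 := congrFun (congrArg DFunLike.coe hcm) (ins s e)
      simp only [LinearEquiv.mul_apply, htu, htv, map_add, map_smul, P.evs_ins, hBk, ← hμ, one_smul,
        add_right_inj] at h1
      exact (smul_left_injective F (fun h0 =>
        hne e he (ins_injective hu0 (h0.trans (map_zero _).symm))) h1).symm
    have huv : P.g u v = 0 := ho.2.2
    have hvu : P.g v u = 0 := ho.symm.2.2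
    have hkey : ∀ X, evs P u (h X - X) = Φ (evs P v (h X - X)) := fun X => by
      obtain ⟨p₁, ⟨p₁', rfl⟩, d₁, hd₁, e₁⟩ := Submodule.mem_sup.1 (hguM (gv X))
      obtain ⟨p₂, ⟨p₂', rfl⟩, d₂, hd₂, e₂⟩ := Submodule.mem_sup.1 (hgvM X)
      obtain ⟨_, ⟨w₁, rfl⟩, rfl⟩ := hd₁
      obtain ⟨_, ⟨w₂, rfl⟩, rfl⟩ := hd₂
      have hsum : h X - X = (gu (gv X) - gv X) + (gv X - X) := by
        rw [LinearEquiv.mul_apply]; abel
      simp only [LinearEquiv.coe_coe] at e₁ e₂
      rw [hsum, ← e₁, ← e₂]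
      simp only [map_add, P.evs_ins, P.alt.alt, huv, hvu, zero_smul, zero_add]
      rw [show evs P v (x (ins v₀ w₁)) = α v w₁ from rfl,
        show evs P v (x (ins v₀ w₂)) = α v w₂ from rfl, hΦα, hΦα]
      rfl
    have hgen : ∀ s w, P.g s v • k w - P.g s u • w =
        P.g (B *ᵥ s) v • Φ (k w) - P.g s v • Φ w := fun s w => by
      have h1 := hkey (ins s w)
      rwa [hBk, map_sub, map_sub, map_sub, P.evs_ins, P.evs_ins, P.evs_ins, P.evs_ins, map_smul,
        map_smul, hBu] at h1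
    obtain ⟨u', hu'u, hu'v⟩ := P.alt.exists_pair ho.symm.2.1
    obtain ⟨f, hfv, hfu⟩ := P.alt.exists_pair ho.2.1
    have h1 : ∀ w, w = P.g (B *ᵥ u') v • Φ (k w) := fun w => by
      have := hgen u' w
      rw [hu'u, hu'v] at this
      simpa [P.neg_eq] using this
    have hΦk : ∀ w, Φ (k w) = w := fun w => by
      have hb := hbig (P.g (B *ᵥ u') v) fun h0 => he (by rw [h1 e, h0, zero_smul])
      conv_rhs => rw [h1 w, hb, one_smul]
    have h2 : ∀ w, k w = P.g (B *ᵥ f) v • w + Φ w := fun w => by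
      have := hgen f w
      rw [hfv, hfu, hΦk] at this
      simpa [sub_eq_add_neg, P.neg_eq] using this
    have hsq : ∀ w, Φ (Φ w) + P.g (B *ᵥ f) v • Φ w + w = 0 := fun w => by
      have h3 := congrArg Φ (h2 w)
      rw [hΦk, map_add, map_smul] at h3
      conv_lhs => arg 2; rw [h3]
      rw [add_comm (Φ (Φ w)), P.add_self]
    have hγ : P.g (B *ᵥ f) v = 1 := hbig _ fun h0 => by
      obtain ⟨w, hw0, hw⟩ : ∃ w, w ≠ 0 ∧ Φ w = w := by
        have h4 : Φ (Φ e) = e := by
          have h5 := hsq e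
          rw [h0, zero_smul, add_zero] at h5
          rw [← P.neg_eq e, eq_neg_iff_add_eq_zero, P.neg_eq e, h5]
        by_cases h6 : e + Φ e = 0
        · exact ⟨e, he, by rw [← P.neg_eq e, eq_neg_iff_add_eq_zero, P.neg_eq e, add_comm, h6]⟩
        · exact ⟨_, h6, by rw [map_add, h4, add_comm]⟩
      obtain ⟨z, rfl⟩ := (LinearMap.injective_iff_surjective.1 (hαi v hv0)) w
      rw [hΦα] at hw
      have huv0 : u + v ≠ 0 := fun h7 => ho.2.1 (by
        rw [eq_neg_of_add_eq_zero_right h7]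
        exact neg_mem (Submodule.mem_span_singleton_self u))
      refine hw0 ?_
      rw [hinj _ huv0 z (by
        rw [P.evs_add]
        show α u z + α v z = 0
        rw [hw, P.add_self]), map_zero]
    refine LinearMap.ext fun w => ?_
    have := hsq w
    rw [hγ, one_smul] at this
    exact this
  -- three vectors
  obtain ⟨v, hv, -⟩ := P.exists_perp_avoid (k := 0) ![] ⊥ (by rw [finrank_bot]; have := P.dim; omega)
  have hv0 : v ≠ 0 := fun h0 => hv (h0 ▸ zero_mem _)
  obtain ⟨u₁, hu₁, hperp⟩ := P.exists_perp_avoid ![v] (F ∙ v)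
    (by rw [finrank_span_singleton hv0]; have := P.dim; omega)
  have h1v : P.g u₁ v = 0 := hperp 0
  have hu₁0 : u₁ ≠ 0 := fun h0 => hu₁ (h0 ▸ zero_mem _)
  obtain ⟨u₂, hu₂, hperp'⟩ := P.exists_perp_avoid ![v, u₁] (Submodule.span F {v, u₁})
    (by have := P.finrank_span_pair v u₁; have := P.dim; omega)
  have h2v : P.g u₂ v = 0 := hperp' 0
  have h21 : P.g u₂ u₁ = 0 := hperp' 1
  have hu₂0 : u₂ ≠ 0 := fun h0 => hu₂ (h0 ▸ zero_mem _)
  have hmk : ∀ s, s ∉ F ∙ v → P.g s v = 0 → Orth P s v := fun s hs hsv =>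
    Orth.symm ⟨hv0, hs, by rw [P.g_symm, hsv]⟩
  have o1 := hmk u₁ hu₁ h1v
  have o2 := hmk u₂ (fun hm => hu₂ (Submodule.span_mono (by simp) hm)) h2v
  have o3 := hmk (u₁ + u₂) (fun hm => hu₂ (by
    have h3 : u₁ + u₂ ∈ Submodule.span F ({v, u₁} : Set (Fin m → F)) :=
      Submodule.span_mono (by simp) hm
    simpa using sub_mem h3 (Submodule.subset_span (show u₁ ∈ ({v, u₁} : Set (Fin m → F)) by simp))))
    (by rw [map_add, LinearMap.add_apply, h1v, h2v, add_zero])
  have o4 : Orth P u₁ u₂ := ⟨hu₁0, fun hm => hu₂ (Submodule.span_mono (by simp) hm),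
    by rw [P.g_symm, h21]⟩
  let αe := LinearEquiv.ofInjectiveEndo (α v) (hαi v hv0)
  set p : Module.End F W := α u₁ ∘ₗ αe.symm.toLinearMap
  set q : Module.End F W := α u₂ ∘ₗ αe.symm.toLinearMap
  have hαv : ∀ u', (α u' ∘ₗ αe.symm.toLinearMap : Module.End F W) * α v = α u' := fun u' =>
    LinearMap.ext fun w => congrArg (α u') (αe.symm_apply_apply w)
  have hp := hquad u₁ v o1 p (hαv u₁)
  have hq := hquad u₂ v o2 q (hαv u₂)
  have hpq := hquad (u₁ + u₂) v o3 (p + q) (by
    rw [add_mul, hαv, hαv]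
    exact LinearMap.ext fun w => (P.evs_add u₁ u₂ (x (ins v₀ w))).symm)
  have hr := hquad u₁ u₂ o4 (p * (q + 1)) (by
    have h1 : (q + 1) * q = 1 := by
      rw [add_mul, one_mul, ← sub_eq_zero, sub_eq_add_neg, P.neg_eq]
      exact hq
    rw [← hαv u₂, show (α u₂ ∘ₗ αe.symm.toLinearMap : Module.End F W) = q from rfl, mul_assoc,
      ← mul_assoc (q + 1), h1, one_mul, hαv])
  haveI : Nontrivial (Module.End F W) := ⟨⟨1, 0, fun h0 => he (LinearMap.congr_fun h0 e)⟩⟩
  exact end_contra (fun z => P.add_self z) hp hq hpq hr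

omit S in
/-- The theorem. -/
theorem split_le (hG : Grp P G) (hP : NoPar P G)
    (hB1 : ∀ g ∈ G, ∀ v v' : Fin m → F, v ≠ 0 → (∀ w, g (ins v w) ∈ line W v') → g ∈ N)
    (hB2 : ∀ x ∈ G, x ∉ N → ∀ v : Fin m → F, v ≠ 0 →
      ∃ c : F, ∃ t ∈ G, (∀ X, t X = X + c • ins v (evs P v X)) ∧ x⁻¹ * t * x ∉ N) : G ≤ N := by
  classical
  by_contra hne
  obtain ⟨g₀, hg₀, hg₀N⟩ := Set.not_subset.1 hne
  have mk : ∀ x ∈ G, x ∉ N → ∀ v₀ : Fin m → F, v₀ ≠ 0 → ∃ a, Sel P G N x a v₀ 1 := by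
    intro x hx hxN v₀ hv0
    obtain ⟨t, htG, ht⟩ := hG.trv v₀ 1
    refine ⟨x * t * x⁻¹, hG, hP, hB1, hx, hxN, hv0, one_ne_zero,
      G.mul_mem (G.mul_mem hx htG) (G.inv_mem hx), fun X => ?_⟩
    rw [LinearEquiv.mul_apply, LinearEquiv.mul_apply, ht, map_add, self_inv_apply, one_smul,
      one_smul]
    rfl
  by_cases hfull : Full P G N
  · obtain ⟨v₀, hv, -⟩ := P.exists_perp_avoid (k := 0) ![] ⊥
      (by rw [finrank_bot]; have := P.dim; omega)
    obtain ⟨a, S⟩ := mk g₀ hg₀ hg₀N v₀ fun h0 => hv (h0 ▸ zero_mem _)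
    exact S.false_full hfull
  simp only [Full] at hfull
  push Not at hfull
  obtain ⟨g, hg, hgN, v, u, hv0, hu0, w, hw, hw0⟩ := hfull
  let dim : ((Fin m → W) ≃ₗ[F] (Fin m → W)) → (Fin m → F) → (Fin m → F) → ℕ :=
    fun g v u => finrank F (LinearMap.ker (evs P u ∘ₗ g.toLinearMap ∘ₗ ins (W := W) v))
  let Q : ℕ → Prop := fun d => ∃ g ∈ G, g ∉ N ∧ ∃ v u : Fin m → F, v ≠ 0 ∧ u ≠ 0 ∧ dim g v u = d
  have hd₀ : Q (dim g v u) := ⟨g, hg, hgN, v, u, hv0, hu0, rfl⟩
  have hbound : ∀ d, Q d → d ≤ finrank F W := by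
    rintro d ⟨g, -, -, v, u, -, -, rfl⟩
    exact Submodule.finrank_le _
  set d := Nat.findGreatest Q (finrank F W)
  have hd : Q d := Nat.findGreatest_spec (hbound _ hd₀) hd₀
  have hmax : ∀ d', Q d' → d' ≤ d := fun d' h => Nat.le_findGreatest (hbound _ h) h
  have hdpos : 0 < d := by
    refine lt_of_lt_of_le ?_ (hmax _ hd₀)
    exact Module.finrank_pos_iff_exists_ne_zero.2
      ⟨⟨w, hw⟩, fun h0 => hw0 (congrArg Subtype.val h0)⟩
  obtain ⟨x, hx, hxN, v₀, u₀, hv₀, hu₀, hdim⟩ := hd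
  obtain ⟨c', t, htG, ht, htN⟩ := hB2 x hx hxN u₀ hu₀
  set x' := x⁻¹ * t * x with hx'
  have hx'G : x' ∈ G := G.mul_mem (G.mul_mem (G.inv_mem hx) htG) hx
  have hfix : ∀ w, evs P u₀ (x (ins v₀ w)) = 0 → x' (ins v₀ w) = ins v₀ w := fun w hw => by
    rw [hx', LinearEquiv.mul_apply, LinearEquiv.mul_apply, ht, hw, map_zero, smul_zero, add_zero,
      inv_apply_self]
  set k₀ := LinearMap.ker (evs P u₀ ∘ₗ x.toLinearMap ∘ₗ ins (W := W) v₀) with hk₀
  obtain ⟨a, S⟩ := mk x' hx'G htN v₀ hv₀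
  obtain ⟨⟨w₁, hw₁⟩, hw₁0⟩ := Module.finrank_pos_iff_exists_ne_zero.1
    (show 0 < finrank F k₀ from hdpos.trans_eq hdim.symm)
  refine S.false_selected (fun u hu0 hvu X hX h0 => ?_) (w := w₁)
    (fun h => hw₁0 (Subtype.ext h)) ⟨ins v₀ w₁, ⟨w₁, rfl⟩, hfix w₁ hw₁⟩
  obtain ⟨_, ⟨w', rfl⟩, rfl⟩ := hX
  have hle : k₀ ≤ LinearMap.ker (evs P u ∘ₗ x'.toLinearMap ∘ₗ ins (W := W) v₀) := fun z hz => by
    simp only [LinearMap.mem_ker, LinearMap.comp_apply, LinearEquiv.coe_coe, hk₀] at hz ⊢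
    rw [hfix z hz, P.evs_ins, hvu, zero_smul]
  have heq := Submodule.eq_of_le_of_finrank_le hle
    ((hmax _ ⟨x', hx'G, htN, v₀, u, hv₀, hu0, rfl⟩).trans hdim.ge)
  have hmem : w' ∈ k₀ := by rw [heq]; exact h0
  rw [LinearEquiv.coe_coe, hfix w' hmem]
  exact ⟨w', rfl⟩

end Cfsg.Agent.MaxSub.TensorPowSp.Even
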